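import Mathlib
import Cfsg.Agent.Lib.Cls.Basic
import Cfsg.Agent.Lib.Transfer.Frobenius

/-!
# Cls/Ito: counting the elements that centralize a Sylow subgroup
-/

set_option autoImplicit false

namespace Cfsg.Agent.Cls

open Subgroup

variable {G : Type*} [Group G] [Finite G] {p : ℕ} [hp : Fact p.Prime]

/-- The elements of class size prime to `p` number at most `|G : N(P)| |C(P)|`. -/
theorem ncard_not_dvd_index_le (P : Sylow p G) :
    {x : G | ¬ p ∣ (centralizer ({x} : Set G)).index}.ncard ≤
      (normalizer (P : Set G)).index * Nat.card (centralizer ((P : Subgroup G) : Set G)) := by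
  classical
  let f : (G ⧸ normalizer (P : Set G)) × centralizer ((P : Subgroup G) : Set G) → G :=
    fun a => a.1.out * a.2 * a.1.out⁻¹
  have h1 : {x : G | ¬ p ∣ (centralizer ({x} : Set G)).index} ⊆ Set.range f := by
    intro x hx
    obtain ⟨g, hg⟩ := exists_conj_mem_centralizer_sylow P hx
    obtain ⟨n, hn⟩ := QuotientGroup.mk_out_eq_mul (normalizer (P : Set G)) g
    have h2 : (n : G)⁻¹ * (g⁻¹ * x * g) * n ∈ centralizer ((P : Subgroup G) : Set G) := by
      have h3 : (n : G)⁻¹ ∈ normalizer ((centralizer ((P : Subgroup G) : Set G) : Subgroup G) : Set G) :=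
        Core.le_normalizer_centralizer (A := normalizer (P : Set G)) (H := (P : Subgroup G)) le_rfl
          (inv_mem n.2)
      simpa using (mem_normalizer_iff.1 h3 _).1 hg
    refine ⟨(QuotientGroup.mk g, ⟨_, h2⟩), ?_⟩
    simp only [f, hn]
    group
  refine (Set.ncard_le_ncard h1).trans ?_
  rw [← Set.image_univ]
  refine (Set.ncard_image_le).trans ?_
  rw [Set.ncard_univ, Nat.card_prod]
  rfl

/-- If `G` has no normal `p`-complement, at most half of its elements have class size prime to
`p`. -/
theorem two_mul_ncard_not_dvd_index_le (h : ¬ HasNormalPComplement p G) :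
    2 * {x : G | ¬ p ∣ (centralizer ({x} : Set G)).index}.ncard ≤ Nat.card G := by
  obtain ⟨P⟩ : Nonempty (Sylow p G) := inferInstance
  have h1 : centralizer ((P : Subgroup G) : Set G) < normalizer (P : Set G) :=
    lt_of_le_of_ne (centralizer_le_normalizer _) fun h2 =>
      h (Transfer.burnside_of_normalizer_le_centralizer P h2.ge)
  have h2 := Core.card_mul_relIndex_of_le h1.le
  have h3 : 2 ≤ (centralizer ((P : Subgroup G) : Set G)).relIndex (normalizer (P : Set G)) := by
    have h4 : (centralizer ((P : Subgroup G) : Set G)).relIndex (normalizer (P : Set G)) ≠ 1 :=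
      fun h5 => h1.not_ge (relIndex_eq_one.1 h5)
    have h5 : (centralizer ((P : Subgroup G) : Set G)).relIndex (normalizer (P : Set G)) ≠ 0 :=
      index_ne_zero_of_finite
    omega
  have h6 := ncard_not_dvd_index_le P
  rw [← (normalizer (P : Set G)).index_mul_card, ← h2]
  nlinarith

omit hp in
/-- Ito's theorem on non-adjacent primes. -/
theorem ito_hasNormalPComplement {q : ℕ} (hp : p.Prime) (hq : q.Prime) (hpq : p ≠ q)
    (h : ∀ x : G, ¬ p * q ∣ (centralizer ({x} : Set G)).index) :
    HasNormalPComplement p G ∨ HasNormalPComplement q G := by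
  have : Fact p.Prime := ⟨hp⟩
  have : Fact q.Prime := ⟨hq⟩
  by_contra hcon
  push Not at hcon
  have h1 := two_mul_ncard_not_dvd_index_le hcon.1
  have h2 := two_mul_ncard_not_dvd_index_le hcon.2
  set A := {x : G | ¬ p ∣ (centralizer ({x} : Set G)).index}
  set B := {x : G | ¬ q ∣ (centralizer ({x} : Set G)).index}
  have h3 : A ∪ B = Set.univ := by
    rw [Set.eq_univ_iff_forall]
    intro x
    by_contra h4
    simp only [A, B, Set.mem_union, Set.mem_ofPred_eq, not_or, not_not] at h4
    exact h x (((Nat.coprime_primes hp hq).2 hpq).mul_dvd_of_dvd_of_dvd h4.1 h4.2)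
  have h4 : (1 : G) ∈ A ∩ B := by
    have : (centralizer ({1} : Set G)).index = 1 := index_centralizer_eq_one_iff.2 (one_mem _)
    exact ⟨by simp only [A, Set.mem_ofPred_eq, this]; exact hp.not_dvd_one,
      by simp only [B, Set.mem_ofPred_eq, this]; exact hq.not_dvd_one⟩
  have h5 := Set.ncard_union_add_ncard_inter A B
  have h6 : 0 < (A ∩ B).ncard := (Set.ncard_pos).2 ⟨1, h4⟩
  rw [h3, Set.ncard_univ] at h5
  omega

end Cfsg.Agent.Cls
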