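import Mathlib
import Cfsg.Agent.Lib.PGrp.RankOne
import Cfsg.Agent.Lib.PGrp.DQS
import Cfsg.Agent.Lib.Schur.AutRank
import Cfsg.Agent.Lib.Transfer.Gruen
import Cfsg.Agent.Lib.Transfer.Frobenius

/-!
Coprime actions in which a Sylow `2`-subgroup has the same orbits as the whole group: tools.
-/

set_option autoImplicit false

namespace Cfsg.Agent.Cls

open Subgroup

section Tools

variable {H : Type*} [Group H]

/-- A perfect group has no subgroup of index two. -/
theorem eq_top_of_perfect_of_mul_mem (hH : commutator H = ⊤) (S : Subgroup H)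
    (h : ∀ a b : H, a ∉ S → b ∉ S → a * b ∈ S) : S = ⊤ := by
  classical
  let f : H →* ℤˣ := MonoidHom.mk' (fun g => if g ∈ S then 1 else -1) fun a b => by
    by_cases ha : a ∈ S <;> by_cases hb : b ∈ S
    · simp [ha, hb, mul_mem ha hb]
    · simp [ha, hb, (S.mul_mem_cancel_left ha)]
    · simp [ha, hb, (S.mul_mem_cancel_right hb)]
    · simp [ha, hb, h a b ha hb]
  have h1 : commutator H ≤ f.ker := Abelianization.commutator_subset_ker f
  rw [eq_top_iff]
  intro g _
  have h2 : f g = 1 := h1 (hH ▸ mem_top g)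
  by_contra hg
  have : f g = -1 := if_neg hg
  rw [this] at h2
  exact absurd h2 (by decide)

theorem not_index_two_of_perfect (hH : commutator H = ⊤) {N : Subgroup H} (h : N.index = 2) :
    False := by
  have := eq_top_of_perfect_of_mul_mem hH N fun a b ha hb =>
    (mul_mem_iff_of_index_two h).2 (iff_of_false ha hb)
  rw [this, index_top] at h
  omega

theorem perfect_of_surjective {H' : Type*} [Group H'] (hH : commutator H = ⊤) (f : H →* H')
    (hf : Function.Surjective f) : commutator H' = ⊤ := by
  rw [commutator_def, ← map_top_of_surjective _ hf, ← map_commutator, ← commutator_def, hH]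

theorem subsingleton_of_perfect_of_isSolvable (hH : commutator H = ⊤) (h : Group.IsSolvable H) :
    Subsingleton H := by
  by_contra hne
  have : Nontrivial H := not_subsingleton_iff_nontrivial.1 hne
  exact (Group.IsSolvable.commutator_lt_top_of_nontrivial H).ne hH

theorem sylow_eq_bot_of_perfect [Finite H] {p : ℕ} [hp : Fact p.Prime] (hH : commutator H = ⊤)
    (h : HasNormalPComplement p H) (P : Sylow p H) : (P : Subgroup H) = ⊥ := by
  obtain ⟨N, _, hN, hq⟩ := Transfer.hasNormalPComplement_iff_exists_normal.1 h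
  have h1 : N = ⊤ := by
    have := hq.isNilpotent
    have := subsingleton_of_perfect_of_isSolvable
      (perfect_of_surjective hH _ (QuotientGroup.mk'_surjective N)) inferInstance
    exact QuotientGroup.subgroup_eq_top_of_subsingleton N this
  rw [h1, card_top] at hN
  obtain ⟨n, hn⟩ := IsPGroup.iff_card.1 P.2
  rw [← card_eq_one]
  exact Nat.eq_one_of_dvd_coprimes (hN.pow_right n) (card_subgroup_dvd_card _) (hn ▸ dvd_rfl)

end Tools

section Sign

variable {V F : Type*} [AddCommGroup V] [CommRing F] [IsDomain F]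

theorem sign_aux (h2 : (2 : F) ≠ 0) (h3 : (3 : F) ≠ 0) {A B B' C : F} (hA : A ≠ 0) (hC : C ≠ 0)
    (e1 : (A + B' - C) ^ 2 = (A + B + C) ^ 2) (e2 : (A - B' - C) ^ 2 = (A - B + C) ^ 2)
    (e3 : (A + 2 * B' - 4 * C) ^ 2 = (A + 2 * B + 4 * C) ^ 2) : False := by
  have f1 : (2 * 2 * 3 * C) * (B' + B) = 0 := by linear_combination (e1 - e2) + 2 * (e1 + e2) - e3
  have f2 : B' + B = 0 :=
    (mul_eq_zero.1 f1).resolve_left (mul_ne_zero (mul_ne_zero (mul_ne_zero h2 h2) h3) hC)
  have f3 : 2 * 2 * 2 * A * C = 0 := by linear_combination (2 * (B' - B)) * f2 - (e1 + e2)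
  exact mul_ne_zero (mul_ne_zero (mul_ne_zero (mul_ne_zero h2 h2) h2) hA) hC f3

/-- Two products of additive maps which agree up to sign agree up to a global sign. -/
theorem sign_const (h2 : (2 : F) ≠ 0) (h3 : (3 : F) ≠ 0) (a b a' b' : V →+ F)
    (h0 : ∀ v, v ≠ 0 → a v * b v ≠ 0)
    (h : ∀ v, a' v * b' v = a v * b v ∨ a' v * b' v = -(a v * b v)) :
    (∀ v, a' v * b' v = a v * b v) ∨ ∀ v, a' v * b' v = -(a v * b v) := by
  by_contra hcon
  push Not at hcon
  obtain ⟨⟨w, hw⟩, u, hu⟩ := hcon
  have hw' := (h w).resolve_left hw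
  have hu' := (h u).resolve_right hu
  have hw0 : w ≠ 0 := by rintro rfl; simp at hw
  have hu0 : u ≠ 0 := by rintro rfl; simp at hu
  have sq : ∀ v, (a' v * b' v) ^ 2 = (a v * b v) ^ 2 := fun v => by
    rcases h v with e | e <;> rw [e]; ring
  have e1 := sq (u + w)
  have e2 := sq (u - w)
  have e3 := sq (u + w + w)
  simp only [map_add, map_sub] at e1 e2 e3
  refine sign_aux h2 h3 (B := a u * b w + a w * b u) (B' := a' u * b' w + a' w * b' u)
    (h0 u hu0) (h0 w hw0) ?_ ?_ ?_
  · rw [show (a' u + a' w) * (b' u + b' w) = a u * b u + (a' u * b' w + a' w * b' u) - a w * b w by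
      linear_combination hu' + hw'] at e1
    rw [e1]; ring
  · rw [show (a' u - a' w) * (b' u - b' w) = a u * b u - (a' u * b' w + a' w * b' u) - a w * b w by
      linear_combination hu' + hw'] at e2
    rw [e2]; ring
  · rw [show (a' u + a' w + a' w) * (b' u + b' w + b' w)
        = a u * b u + 2 * (a' u * b' w + a' w * b' u) - 4 * (a w * b w) by
      linear_combination hu' + 4 * hw'] at e3
    rw [e3]; ring

end Sign

section Singer

variable {k V : Type*} [CommRing k] [AddCommGroup V] [Module k V]

open scoped IsMulCommutative in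
/-- Coordinates of a module irreducible under one endomorphism, in a commutative domain. -/
theorem exists_coord (X : Module.End k V) {v₀ : V} (h0 : v₀ ≠ 0)
    (hirr : ∀ W : Submodule k V, (∀ v ∈ W, X v ∈ W) → W = ⊥ ∨ W = ⊤) :
    IsDomain (Algebra.adjoin k {X}) ∧ ∃ (κ : V →+ Algebra.adjoin k {X}) (x : Algebra.adjoin k {X}),
      κ v₀ = 1 ∧ Function.Injective κ ∧ ∀ v, κ (X v) = x * κ v := by
  have hX : X ∈ Algebra.adjoin k {X} := Algebra.subset_adjoin rfl
  have inj : ∀ a : Algebra.adjoin k {X}, a ≠ 0 → ∀ v, (a : Module.End k V) v = 0 → v = 0 := by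
    intro a ha v hv
    rcases hirr (LinearMap.ker (a : Module.End k V)) (fun w hw => by
      have e : (a : Module.End k V) * X = X * a := congrArg Subtype.val (mul_comm a ⟨X, hX⟩)
      rw [LinearMap.mem_ker] at hw ⊢
      rw [← Module.End.mul_apply, e, Module.End.mul_apply, hw, map_zero]) with h | h
    · have : v ∈ LinearMap.ker (a : Module.End k V) := hv
      rwa [h] at this
    · exact absurd (Subtype.ext (LinearMap.ker_eq_top.1 h)) ha
  have one : (1 : Algebra.adjoin k {X}) ≠ 0 := fun h => h0 (by
    have := congrArg (fun a : Algebra.adjoin k {X} => (a : Module.End k V) v₀) h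
    simpa using this)
  have : Nontrivial (Algebra.adjoin k {X}) := ⟨1, 0, one⟩
  have : NoZeroDivisors (Algebra.adjoin k {X}) := ⟨fun {a b} hab => by
    by_contra hcon
    push Not at hcon
    refine h0 (inj b hcon.2 _ (inj a hcon.1 _ ?_))
    have := congrArg (fun a : Algebra.adjoin k {X} => (a : Module.End k V) v₀) hab
    simpa using this⟩
  refine ⟨NoZeroDivisors.to_isDomain _, ?_⟩
  let ev : Algebra.adjoin k {X} →ₗ[k] V :=
    (LinearMap.applyₗ v₀).comp (Algebra.adjoin k {X}).val.toLinearMap
  have hev : ∀ a, ev a = (a : Module.End k V) v₀ := fun a => rfl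
  have hinj : Function.Injective ev := by
    rw [injective_iff_map_eq_zero]
    intro a ha
    by_contra h
    exact h0 (inj a h _ ha)
  have hsurj : Function.Surjective ev := by
    rcases hirr (LinearMap.range ev) (by
      rintro _ ⟨a, rfl⟩
      exact ⟨⟨X, hX⟩ * a, rfl⟩) with h | h
    · have : v₀ ∈ LinearMap.range ev := ⟨1, rfl⟩
      rw [h] at this
      exact absurd this h0
    · exact LinearMap.range_eq_top.1 h
  let e := LinearEquiv.ofBijective ev ⟨hinj, hsurj⟩
  refine ⟨e.symm.toLinearMap.toAddMonoidHom, ⟨X, hX⟩, e.symm_apply_eq.2 rfl, e.symm.injective,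
    fun v => ?_⟩
  obtain ⟨a, rfl⟩ := e.surjective v
  change e.symm _ = _ * e.symm _
  rw [e.symm_apply_apply, e.symm_apply_eq]
  rfl

end Singer

section Pair

variable {k H V : Type*} [CommRing k] [Group H] [AddCommGroup V] [Module k V] [Finite V]
  (ρ : Representation k H V)

omit [Finite V] in
theorem rep_injective (h : H) : Function.Injective (ρ h) := fun v w e => by
  have := congrArg (ρ h⁻¹) e
  simpa using this

omit [Finite V] in
theorem card_map_rep (h : H) (W : Submodule k V) : Nat.card (W.map (ρ h)) = Nat.card W :=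
  (Nat.card_congr (W.equivMapOfInjective _ (rep_injective ρ h)).toEquiv).symm

theorem eq_of_le_of_card_eq {W W' : Submodule k V} (h : W ≤ W') (hc : Nat.card W = Nat.card W') :
    W = W' :=
  SetLike.coe_injective (Set.eq_of_subset_of_ncard_le h hc.ge)

omit [Finite V] in
theorem le_or_le_of_forall {W A B : Submodule k V} (h : ∀ v ∈ W, v ∈ A ∨ v ∈ B) :
    W ≤ A ∨ W ≤ B := by
  by_contra hcon
  rw [not_or, SetLike.not_le_iff_exists, SetLike.not_le_iff_exists] at hcon
  obtain ⟨⟨a, ha, ha'⟩, b, hb, hb'⟩ := hcon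
  rcases h _ (add_mem ha hb) with e | e
  · exact ha' ((A.add_mem_iff_left ((h b hb).resolve_right hb')).1 e)
  · exact hb' ((B.add_mem_iff_right ((h a ha).resolve_left ha')).1 e)

/-- A perfect group preserving the union of two submodules of equal size preserves both. -/
theorem map_eq_of_pair (hH : commutator H = ⊤) {A B : Submodule k V}
    (hc : Nat.card A = Nat.card B) (h : ∀ g v, v ∈ A ∨ v ∈ B → ρ g v ∈ A ∨ ρ g v ∈ B) (g : H) :
    A.map (ρ g) = A := by
  have key : ∀ (g : H) (W : Submodule k V), W = A ∨ W = B → W.map (ρ g) = A ∨ W.map (ρ g) = B := by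
    intro g W hW
    have hcW : Nat.card (W.map (ρ g)) = Nat.card A := by
      rw [card_map_rep]; rcases hW with rfl | rfl <;> simp [hc]
    refine (le_or_le_of_forall ?_).imp (eq_of_le_of_card_eq · hcW)
      (eq_of_le_of_card_eq · (hcW.trans hc))
    rintro _ ⟨v, hv, rfl⟩
    refine h g v ?_
    rcases hW with rfl | rfl
    exacts [.inl hv, .inr hv]
  have mul : ∀ (a b : H) (W : Submodule k V), W.map (ρ (a * b)) = (W.map (ρ b)).map (ρ a) := by
    intro a b W
    rw [map_mul, Module.End.mul_eq_comp, Submodule.map_comp]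
  have one : ∀ W : Submodule k V, W.map (ρ 1) = W := fun W => by
    rw [map_one, Module.End.one_eq_id, Submodule.map_id]
  let S : Subgroup H :=
    { carrier := {g | A.map (ρ g) = A}
      mul_mem' := fun {a b} ha hb => by
        change _ = _ at ha hb ⊢
        rw [mul, hb, ha]
      one_mem' := one A
      inv_mem' := fun {a} ha => by
        change _ = _ at ha ⊢
        conv_lhs => rw [← ha]
        rw [← mul, inv_mul_cancel, one] }
  have : S = ⊤ := eq_top_of_perfect_of_mul_mem hH S fun a b ha hb => by
    have ha' := (key a A (.inl rfl)).resolve_left ha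
    have hb' := (key b A (.inl rfl)).resolve_left hb
    change _ = _
    rw [mul, hb']
    refine (key a B (.inr rfl)).resolve_right fun e => ha ?_
    have : A = B := Submodule.map_injective_of_injective (rep_injective ρ a) (ha'.trans e.symm)
    exact ha'.trans this.symm
  have hg : g ∈ S := this ▸ mem_top g
  exact hg

end Pair

end Cfsg.Agent.Cls
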