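import Cfsg.Agent.Lib.Cls.OrbitPow

/-!
Coprime actions in which a Sylow `2`-subgroup has the same orbits as the whole group: the faithful
irreducible case.
-/

set_option autoImplicit false

namespace Cfsg.Agent.Cls

open Subgroup

variable {k H V : Type*} [CommRing k] [Group H] [Finite H] [AddCommGroup V] [Module k V] [Finite V]

omit [Finite V] in
theorem eq_zero_of_prime_nsmul (hcop : (Nat.card V).Coprime (Nat.card H)) {p : ℕ}
    (hp : p ∣ Nat.card H) {v : V} (hv : p • v = 0) : v = 0 := by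
  rw [← AddMonoid.addOrderOf_eq_one_iff]
  exact Nat.eq_one_of_dvd_coprimes hcop (addOrderOf_dvd_natCard v)
    ((addOrderOf_dvd_of_nsmul_eq_zero hv).trans hp)

/-- The hypotheses of the faithful irreducible case. -/
structure OrbIrr (ρ : Representation k H V) (P : Sylow 2 H) : Prop where
  perf : commutator H = ⊤
  inj : Function.Injective ρ
  cop : (Nat.card V).Coprime (Nat.card H)
  orb : ∀ h v, ∃ g ∈ (P : Subgroup H), ρ h v = ρ g v
  irr : ∀ W : Submodule k V, (∀ g ∈ (P : Subgroup H), ∀ v ∈ W, ρ g v ∈ W) → W = ⊥ ∨ W = ⊤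

variable {ρ : Representation k H V} {P : Sylow 2 H}

omit [Finite H] [Finite V] in
theorem rep_mul_apply (a b : H) (v : V) : ρ (a * b) v = ρ a (ρ b v) := by
  rw [map_mul, Module.End.mul_apply]

omit [Finite H] [Finite V] in
theorem neg_of_fix_eq_bot {e : H} (he : e ^ 2 = 1) (h : ∀ v, ρ e v = v → v = 0) (v : V) :
    ρ e v = -v := by
  refine eq_neg_of_add_eq_zero_left (h _ ?_)
  rw [map_add, ← rep_mul_apply, ← sq, he, map_one, Module.End.one_apply, add_comm]

omit [Finite H] [Finite V] in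
theorem OrbIrr.neg_of_central (h : OrbIrr ρ P) {z : P.1} (hz : z ∈ center P.1) (h1 : z ≠ 1)
    (h2 : z ^ 2 = 1) (v : V) : ρ z v = -v := by
  refine neg_of_fix_eq_bot (by exact_mod_cast congrArg Subtype.val h2) (fun w hw => ?_) v
  rcases h.irr (LinearMap.ker (ρ z - 1)) (fun g hg v hv => by
    rw [LinearMap.mem_ker, LinearMap.sub_apply, Module.End.one_apply, sub_eq_zero] at hv ⊢
    have e : g * z = z * g := congrArg Subtype.val (mem_center_iff.1 hz ⟨g, hg⟩)
    rw [← rep_mul_apply, ← e, rep_mul_apply, hv]) with e | e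
  · have : w ∈ LinearMap.ker (ρ z - 1) := by
      rw [LinearMap.mem_ker, LinearMap.sub_apply, Module.End.one_apply, hw, sub_self]
    rwa [e] at this
  · rw [LinearMap.ker_eq_top, sub_eq_zero, ← map_one ρ] at e
    exact absurd (Subtype.ext (h.inj e)) h1

omit [Finite H] [Finite V] in
theorem OrbIrr.eq_of_neg (h : OrbIrr ρ P) {a b : H} (ha : ∀ v, ρ a v = -v)
    (hb : ∀ v, ρ b v = -v) : a = b :=
  h.inj (LinearMap.ext fun v => (ha v).trans (hb v).symm)

omit [Finite H] in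
theorem OrbIrr.pair (h : OrbIrr ρ P) {A B : Submodule k V} (hc : Nat.card A = Nat.card B)
    (hP : ∀ g ∈ (P : Subgroup H), ∀ v, v ∈ A ∨ v ∈ B → ρ g v ∈ A ∨ ρ g v ∈ B) :
    A = ⊥ ∨ A = ⊤ := by
  refine h.irr A fun g _ v hv => ?_
  rw [← map_eq_of_pair ρ h.perf hc (fun g v hv => ?_) g]
  · exact Submodule.mem_map_of_mem hv
  · obtain ⟨g', hg', e⟩ := h.orb g v
    rw [e]
    exact hP g' hg' v hv

theorem card_le_of_map_le {g : H} {A B : Submodule k V} (h : ∀ v ∈ A, ρ g v ∈ B) :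
    Nat.card A ≤ Nat.card B :=
  Nat.card_le_card_of_injective (fun v : A => (⟨ρ g v, h v v.2⟩ : B)) fun _ _ e =>
    Subtype.ext (rep_injective ρ g (congrArg Subtype.val e))

theorem OrbIrr.no_four (h : OrbIrr ρ P) {E : Subgroup P.1} [hEn : E.Normal]
    (hE : IsElementaryAbelian 2 E) (hc : Nat.card E = 2 ^ 2) : False := by
  have hb : E ≠ ⊥ := by rintro rfl; simp at hc
  obtain ⟨z, hzE, hz, ho⟩ := PGrp.exists_mem_center_orderOf_eq P.2 hb
  have hz1 : z ≠ 1 := by rintro rfl; simp at ho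
  have hz2 : z ^ 2 = 1 := by have := pow_orderOf_eq_one z; rwa [ho] at this
  have hzn := h.neg_of_central hz hz1 hz2
  have hi : ((zpowers z).subgroupOf E).index = 2 := by
    have := ((zpowers z).subgroupOf E).card_mul_index
    rw [Nat.card_congr (subgroupOfEquivOfLe (zpowers_le.2 hzE)).toEquiv, Nat.card_zpowers, ho,
      hc] at this
    omega
  have hzz : ∀ a ∈ zpowers z, a = 1 ∨ a = z := fun a ha => by
    obtain ⟨i, rfl⟩ := mem_powers_iff_mem_zpowers.2 ha
    rcases Nat.even_or_odd' i with ⟨j, rfl | rfl⟩ <;> simp [pow_succ, pow_mul, hz2]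
  obtain ⟨e, he⟩ : ∃ e : E, e ∉ (zpowers z).subgroupOf E := by
    by_contra hcon
    push Not at hcon
    rw [(eq_top_iff' _).2 hcon, index_top] at hi
    omega
  have he2 : (e : P.1) ^ 2 = 1 := hE.2 e e.2
  have he2' : ((e : P.1) : H) ^ 2 = 1 := by exact_mod_cast congrArg Subtype.val he2
  have conj : ∀ g : P.1, (e : P.1) * g = g * e ∨ (e : P.1) * g = g * e * z := fun g => by
    have h1 : (⟨g⁻¹ * e * g⁻¹⁻¹, hEn.conj_mem _ e.2 _⟩ : E) ∉ (zpowers z).subgroupOf E := by
      intro h1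
      refine he (mem_subgroupOf.2 ?_)
      have := (PGrp.normal_of_le_center (zpowers_le.2 hz)).conj_mem _ (mem_subgroupOf.1 h1) g
      simpa [mul_assoc] using this
    have h2 := (mul_mem_iff_of_index_two hi).2 (iff_of_false (mt inv_mem_iff.1 he) h1)
    rcases hzz _ (mem_subgroupOf.1 h2) with h3 | h3
    · left
      have h4 : (e : P.1)⁻¹ * (g⁻¹ * e * g⁻¹⁻¹) = 1 := h3
      calc (e : P.1) * g = g * e * ((e : P.1)⁻¹ * (g⁻¹ * e * g⁻¹⁻¹)) := by group
        _ = _ := by rw [h4, mul_one]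
    · right
      have h4 : (e : P.1)⁻¹ * (g⁻¹ * e * g⁻¹⁻¹) = z := h3
      calc (e : P.1) * g = g * e * ((e : P.1)⁻¹ * (g⁻¹ * e * g⁻¹⁻¹)) := by group
        _ = _ := by rw [h4]
  have hne : ¬ ∀ v, ρ (e : P.1) v = -v := fun hn =>
    he (mem_subgroupOf.2 (Subtype.ext (h.eq_of_neg hn hzn) ▸ mem_zpowers z))
  have he1 : (e : P.1) ≠ 1 := fun h1 => he (mem_subgroupOf.2 (h1 ▸ one_mem _))
  set A := LinearMap.ker (ρ (e : P.1) - 1) with hA
  set B := LinearMap.ker (ρ (e : P.1) + 1) with hB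
  have mA : ∀ v, v ∈ A ↔ ρ (e : P.1) v = v := fun v => by
    rw [hA, LinearMap.mem_ker, LinearMap.sub_apply, Module.End.one_apply, sub_eq_zero]
  have mB : ∀ v, v ∈ B ↔ ρ (e : P.1) v = -v := fun v => by
    rw [hB, LinearMap.mem_ker, LinearMap.add_apply, Module.End.one_apply, add_eq_zero_iff_eq_neg]
  have c1 : ∀ g : P.1, (e : P.1) * g = g * e → ∀ v, ρ (e : P.1) (ρ g v) = ρ g (ρ (e : P.1) v) := by
    intro g hg v
    rw [← rep_mul_apply, ← rep_mul_apply, ← coe_mul, hg, coe_mul]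
  have c2 : ∀ g : P.1, (e : P.1) * g = g * e * z → ∀ v, ρ (e : P.1) (ρ g v) = -ρ g (ρ (e : P.1) v) := by
    intro g hg v
    rw [← rep_mul_apply, ← coe_mul, hg, coe_mul, coe_mul, rep_mul_apply, rep_mul_apply, hzn,
      map_neg, map_neg]
  obtain ⟨t, ht⟩ : ∃ t : P.1, (e : P.1) * t = t * e * z := by
    by_contra hcon
    push Not at hcon
    exact hne (h.neg_of_central (mem_center_iff.2 fun g => ((conj g).resolve_right (hcon g)).symm)
      he1 he2)
  have hcard : Nat.card A = Nat.card B := le_antisymm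
    (card_le_of_map_le (ρ := ρ) (g := t) fun v hv => by rw [mB, c2 t ht, (mA v).1 hv])
    (card_le_of_map_le (ρ := ρ) (g := t) fun v hv => by
      rw [mA, c2 t ht, (mB v).1 hv, map_neg, neg_neg])
  rcases h.pair hcard (fun g hg v hv => by
    rw [mA, mB] at hv ⊢
    rcases conj ⟨g, hg⟩ with e | e
    · rw [c1 _ e]
      exact hv.imp (fun e => by rw [e]) fun e => by rw [e, map_neg]
    · rw [c2 _ e]
      exact hv.symm.imp (fun e => by rw [e, map_neg, neg_neg]) fun e => by rw [e]) with e' | e'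
  · refine hne (neg_of_fix_eq_bot he2' fun v hv => ?_)
    have := (mA v).2 hv
    rwa [e'] at this
  · rw [hA, LinearMap.ker_eq_top, sub_eq_zero, ← map_one ρ] at e'
    exact he1 (Subtype.ext (h.inj e'))

omit [Finite V] in
theorem OrbIrr.sq_ne_one (h : OrbIrr ρ P) {n : ℕ} {x y : P.1} (hd : PGrp.IsDQS n x y) :
    y ^ 2 ≠ 1 := by
  intro hy
  have hy' : (y : H) ^ 2 = 1 := by exact_mod_cast congrArg Subtype.val hy
  obtain ⟨N, -, hN, -⟩ := Transfer.thompson_transfer_sylow P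
    (M := (zpowers x).map (P : Subgroup H).subtype) (map_subtype_le _)
    (by rw [relIndex, subgroupOf, comap_map_eq_self_of_injective (subtype_injective _), hd.index])
    hy' (by
      rintro g ⟨w, hw, e⟩
      have e' : (w : H) = g⁻¹ * y * g := e
      have hw2 : w ^ 2 = 1 := Subtype.ext (by
        rw [SubmonoidClass.coe_pow, e', show (g⁻¹ * y * g) ^ 2 = g⁻¹ * (y : H) ^ 2 * g by
          rw [sq, sq]; group, hy']
        simp)
      have hw1 : w ≠ 1 := by
        rintro rfl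
        refine hd.2.2.2.1 ?_
        have : y = 1 := Subtype.ext (by
          calc (y : H) = g * (g⁻¹ * y * g) * g⁻¹ := by group
            _ = _ := by rw [← e']; simp)
        exact this ▸ one_mem _
      have hn := hd.1
      have hwc : w ∈ center P.1 := by
        rw [hd.center_eq]
        exact PGrp.mem_zpowers_of_pow_eq_one
          (by rw [hd.2.2.1, Nat.sub_add_cancel (by omega)]) hw hw2
      have h1 := h.neg_of_central hwc hw1 hw2
      have h2 : (y : H) = w := h.eq_of_neg (fun v => by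
        rw [show (y : H) = g * w * g⁻¹ by rw [e']; group, rep_mul_apply, rep_mul_apply, h1,
          map_neg, ← rep_mul_apply]
        simp) h1
      exact hd.2.2.2.1 (Subtype.ext h2 ▸ hw))
  exact not_index_two_of_perfect h.perf hN

omit [Finite V] in
theorem three_dvd_of_perfect (hH : commutator H = ⊤) (hP : (P : Subgroup H) ≠ ⊥) {x : P.1}
    (hx : (zpowers x).index = 2) : 3 ∣ Nat.card H := by
  by_contra h3
  refine hP (sylow_eq_bot_of_perfect hH (Transfer.frobenius_of_coprime_centralizes P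
    fun X hX _ g hg hg2 => Schur.mem_centralizer_of_rank_le (P.isPGroup'.to_le hX) (d := 2) ?_
      hg hg2 ?_) P)
  · have : IsCyclic ((zpowers x).comap (inclusion hX)) := by
      refine isCyclic_of_injective (G' := zpowers x)
        (((inclusion hX).comp (Subgroup.subtype _)).codRestrict _ fun a => a.2) fun a b e => ?_
      exact Subtype.ext (inclusion_injective hX (congrArg Subtype.val e))
    refine Schur.rank_le_two_of_index_le_two (C := (zpowers x).comap (inclusion hX)) ?_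
    rw [index_comap]
    have := normal_of_index_eq_two hx
    exact Nat.le_of_dvd two_pos ((relIndex_dvd_index_of_normal _ _).trans hx.dvd)
  · rw [show ∏ i ∈ Finset.Icc 1 2, (2 ^ i - 1) = 3 by decide, Nat.coprime_comm,
      Nat.prime_three.coprime_iff_not_dvd]
    exact fun e => h3 (e.trans (_root_.orderOf_dvd_natCard g))

open scoped IsMulCommutative in
theorem OrbIrr.not_quat (h : OrbIrr ρ P) {n : ℕ} {x y : P.1} (hd : PGrp.IsDQS n x y)
    (hxy : y * x * y⁻¹ = x⁻¹) : False := by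
  have hy1 := h.sq_ne_one hd
  have hP : (P : Subgroup H) ≠ ⊥ := fun e => hy1 (Subtype.ext (by
    have : ((y ^ 2 : P.1) : H) ∈ (⊥ : Subgroup H) := e ▸ (y ^ 2).2
    exact this))
  have hyn := h.neg_of_central (hd.sq_mem_center hd.2.2.2.1) hy1
    (by rw [← pow_mul]; exact hd.pow_four hd.2.2.2.1)
  have hyy : ∀ v, ρ y (ρ y v) = -v := fun v => by
    rw [← rep_mul_apply, ← coe_mul, ← sq, hyn]
  have h3 := three_dvd_of_perfect h.perf hP hd.index
  have h2 : 2 ∣ Nat.card H := by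
    obtain ⟨m, hm⟩ := IsPGroup.iff_card.1 P.2
    refine (dvd_trans ?_ (card_subgroup_dvd_card (P : Subgroup H)))
    rw [hm]
    refine dvd_pow_self 2 fun e => hP ?_
    rw [← card_eq_one, hm, e, pow_zero]
  have split : ∀ g : P.1, ∃ i : ℕ, g = x ^ i ∨ g = x ^ i * y := fun g => by
    by_cases hg : g ∈ zpowers x
    · obtain ⟨i, hi⟩ := mem_powers_iff_mem_zpowers.2 hg
      exact ⟨i, .inl hi.symm⟩
    · obtain ⟨i, hi⟩ := mem_powers_iff_mem_zpowers.2 (hd.mul_inv_mem hg hd.2.2.2.1)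
      exact ⟨i, .inr (by rw [show x ^ i = g * y⁻¹ from hi]; group)⟩
  have hxyx : ∀ v, ρ x (ρ y (ρ x v)) = ρ y v := fun v => by
    rw [← rep_mul_apply, ← rep_mul_apply, ← coe_mul, ← coe_mul,
      show x * y * x = y by rw [mul_assoc, show y * x = x⁻¹ * y by rw [← hxy]; group]; group]
  have pw : ∀ (S : V → Prop), (∀ v, S v → S (ρ x v)) → ∀ (i : ℕ) (v), S v →
      S (ρ ((x ^ i : P.1) : H) v) := fun S hS i => by
    induction i with
    | zero => intro v hv; simpa using hv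
    | succ i ih => intro v hv; rw [pow_succ', coe_mul, rep_mul_apply]; exact hS _ (ih v hv)
  have hirr : ∀ W : Submodule k V, (∀ v ∈ W, ρ x v ∈ W) → W = ⊥ ∨ W = ⊤ := fun W hW => by
    have hW' : ∀ v ∈ W.map (ρ y), ρ x v ∈ W.map (ρ y) := by
      rintro _ ⟨v, hv, rfl⟩
      obtain ⟨i, hi⟩ := mem_powers_iff_mem_zpowers.2 (inv_mem (mem_zpowers x))
      refine ⟨_, pw (· ∈ W) hW i v hv, ?_⟩
      rw [show x ^ i = x⁻¹ from hi, ← hxyx, ← rep_mul_apply (ρ := ρ) x (x⁻¹ : P.1)]
      simp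
    refine h.pair (card_map_rep ρ y W).symm fun g hg v hv => ?_
    obtain ⟨i, e | e⟩ := split ⟨g, hg⟩
    · rw [show g = (x ^ i : P.1) from congrArg Subtype.val e]
      exact hv.imp (pw (· ∈ W) hW i v) (pw (· ∈ W.map (ρ y)) hW' i v)
    · rw [show g = (x ^ i * y : P.1) from congrArg Subtype.val e, coe_mul, rep_mul_apply]
      rcases hv with hv | ⟨w, hw, rfl⟩
      · exact .inr (pw (· ∈ W.map (ρ y)) hW' i _ (Submodule.mem_map_of_mem hv))
      · exact .inl (pw (· ∈ W) hW i _ (by rw [hyy]; exact neg_mem hw))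
  obtain ⟨v₀, h0⟩ : ∃ v₀ : V, v₀ ≠ 0 := by
    by_contra hcon
    push Not at hcon
    exact hy1 (Subtype.ext (h.inj (LinearMap.ext fun v => (hcon _).trans (hcon _).symm)))
  obtain ⟨_, κ, X, hκ1, hκ, hX⟩ := exists_coord (ρ x) h0 hirr
  have hn : ∀ m : ℕ, m ∣ Nat.card H → (m : Algebra.adjoin k {ρ x}) ≠ 0 := fun m hm e =>
    h0 (eq_zero_of_prime_nsmul h.cop hm (hκ (by rw [map_nsmul, hκ1, map_zero, nsmul_one, e])))
  have hF2 : (2 : Algebra.adjoin k {ρ x}) ≠ 0 := by exact_mod_cast hn 2 h2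
  have hF3 : (3 : Algebra.adjoin k {ρ x}) ≠ 0 := by exact_mod_cast hn 3 h3
  have hN0 : ∀ v, v ≠ 0 → κ v * κ (ρ y v) ≠ 0 := fun v hv =>
    mul_ne_zero (fun e => hv (hκ (e.trans (map_zero κ).symm)))
      fun e => hv (rep_injective ρ y ((hκ (e.trans (map_zero κ).symm)).trans (map_zero _).symm))
  have hNx : ∀ (i : ℕ) (v), κ (ρ ((x ^ i : P.1) : H) v) * κ (ρ y (ρ ((x ^ i : P.1) : H) v))
      = κ v * κ (ρ y v) := fun i v =>
    pw (fun w => κ w * κ (ρ y w) = κ v * κ (ρ y v)) (fun w hw => by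
      rw [← hw, ← hxyx w, hX, hX]; ring) i v rfl
  have hNy : ∀ v, κ (ρ y v) * κ (ρ y (ρ y v)) = -(κ v * κ (ρ y v)) := fun v => by
    rw [hyy, map_neg]; ring
  let S : Subgroup H :=
    { carrier := {g | ∀ v, κ (ρ g v) * κ (ρ y (ρ g v)) = κ v * κ (ρ y v)}
      mul_mem' := fun {a b} ha hb v => by rw [rep_mul_apply, ha, hb]
      one_mem' := fun v => by simp
      inv_mem' := fun {a} ha v => by rw [← ha, ← rep_mul_apply]; simp }
  have neg : ∀ a ∉ S, ∀ v, κ (ρ a v) * κ (ρ y (ρ a v)) = -(κ v * κ (ρ y v)) := fun a ha => by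
    refine (sign_const hF2 hF3 κ (κ.comp (ρ y).toAddMonoidHom) (κ.comp (ρ a).toAddMonoidHom)
      (κ.comp ((ρ y).toAddMonoidHom.comp (ρ a).toAddMonoidHom)) hN0 fun v => ?_).resolve_left ha
    change κ (ρ a v) * κ (ρ y (ρ a v)) = κ v * κ (ρ y v) ∨
      κ (ρ a v) * κ (ρ y (ρ a v)) = -(κ v * κ (ρ y v))
    obtain ⟨g, hg, e⟩ := h.orb a v
    rw [e]
    obtain ⟨i, e | e⟩ := split ⟨g, hg⟩
    · rw [show g = (x ^ i : P.1) from congrArg Subtype.val e]
      exact .inl (hNx i v)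
    · rw [show g = (x ^ i * y : P.1) from congrArg Subtype.val e, coe_mul, rep_mul_apply]
      exact .inr ((hNx i _).trans (hNy v))
  have hS : S = ⊤ := eq_top_of_perfect_of_mul_mem h.perf S fun a b ha hb v => by
    rw [rep_mul_apply, neg a ha, neg b hb, neg_neg]
  have hy : (y : H) ∈ S := hS ▸ mem_top _
  refine mul_ne_zero hF2 (hN0 v₀ h0) ?_
  linear_combination hNy v₀ - hy v₀

theorem OrbIrr.eq_bot (h : OrbIrr ρ P) : (P : Subgroup H) = ⊥ := by
  rcases PGrp.isCyclic_or_dqs_or_exists_normal_elemAb P.2 with hc | ⟨-, n, x, y, hd⟩ | ⟨E, _, h1, h2⟩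
  · by_cases h2 : 2 ∣ Nat.card H
    · exact sylow_eq_bot_of_perfect h.perf (Transfer.burnside_of_normalizer_le_centralizer P
        (hc.normalizer_le_centralizer ((Nat.minFac_eq_two_iff _).2 h2))) P
    · exact sylow_eq_bot_of_perfect h.perf (Transfer.hasNormalPComplement_of_not_dvd h2) P
  · rcases hd.2.2.2.2 with e | e | e
    · exact absurd e.2 (h.sq_ne_one hd)
    · exact (h.not_quat hd e.1).elim
    · exact absurd e.2.2 (h.sq_ne_one hd)
  · exact (h.no_four h1 h2).elim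

end Cfsg.Agent.Cls
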