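import Cfsg.Agent.Lib.Cls.OrbitPow2
import Cfsg.Agent.Lib.Cls.Basic
import Cfsg.Agent.Lib.Coprime.FTHyp
import Cfsg.Agent.Lib.Transfer.Camina

/-!
A group acting faithfully and coprimely on an abelian group with all orbits of `p`-power length is
solvable (given the odd order theorem).
-/

set_option autoImplicit false

namespace Cfsg.Agent.Cls

open Subgroup

universe v

variable {k H : Type*} [CommRing k] [Group H] [Finite H] {p : ℕ} [hp : Fact p.Prime]

theorem rep_trivial_of_irr (ft : Coprime.FT.{0}) {V : Type*} [AddCommGroup V] [Module k V]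
    [Finite V] (ρ : Representation k H V) (P : Sylow p H) (hH : commutator H = ⊤)
    (cop : (Nat.card V).Coprime (Nat.card H))
    (orb : ∀ h v, ∃ g ∈ (P : Subgroup H), ρ h v = ρ g v)
    (irr : ∀ W : Submodule k V, (∀ g ∈ (P : Subgroup H), ∀ v ∈ W, ρ g v ∈ W) → W = ⊥ ∨ W = ⊤)
    (h : H) (v : V) : ρ h v = v := by
  let σ : Representation k (H ⧸ ρ.ker) V := QuotientGroup.lift ρ.ker ρ le_rfl
  have hσ : ∀ g : H, σ (g : H ⧸ ρ.ker) = ρ g := fun g => rfl
  have key : ∀ a, σ a = 1 → a = 1 := fun a ha => by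
    obtain ⟨a, rfl⟩ := QuotientGroup.mk_surjective a
    exact (QuotientGroup.eq_one_iff a).2 ha
  have hinj : Function.Injective σ := fun a b e => by
    rw [← mul_inv_eq_one]
    exact key _ (by rw [map_mul, e, ← map_mul, mul_inv_cancel, map_one])
  have hH' := perfect_of_surjective hH _ (QuotientGroup.mk'_surjective ρ.ker)
  have cop' : (Nat.card V).Coprime (Nat.card (H ⧸ ρ.ker)) :=
    cop.coprime_dvd_right (card_quotient_dvd_card _)
  by_cases h2 : p = 2
  · subst h2
    have := OrbIrr.eq_bot (ρ := σ) (P := P.mapSurjective (QuotientGroup.mk'_surjective ρ.ker))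
      ⟨hH', hinj, cop', fun a v => by
        obtain ⟨a, rfl⟩ := QuotientGroup.mk_surjective a
        obtain ⟨g, hg, e⟩ := orb a v
        exact ⟨g, mem_map_of_mem _ hg, e⟩,
      fun W hW => irr W fun g hg => hW g (mem_map_of_mem _ hg)⟩
    obtain ⟨g, hg, e⟩ := orb h v
    have h1 : (g : H ⧸ ρ.ker) ∈ (⊥ : Subgroup (H ⧸ ρ.ker)) := this ▸ mem_map_of_mem _ hg
    rw [e, ← hσ, mem_bot.1 h1, map_one, Module.End.one_apply]
  · have : ¬ 2 ∣ Nat.card (H ⧸ ρ.ker) := fun hd => by
      have : Fact (Nat.Prime 2) := ⟨Nat.prime_two⟩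
      obtain ⟨t, ht⟩ := exists_prime_orderOf_dvd_card' 2 hd
      have ht2 : t ^ 2 = 1 := by rw [← ht, pow_orderOf_eq_one]
      have ht1 : t ≠ 1 := by rintro rfl; simp at ht
      refine ht1 (key _ (LinearMap.ext fun v => ?_))
      have e : σ t (σ t v - v) = -(σ t v - v) := by
        rw [map_sub, ← rep_mul_apply, ← sq, ht2, map_one, Module.End.one_apply, neg_sub]
      obtain ⟨t, rfl⟩ := QuotientGroup.mk_surjective t
      obtain ⟨g, hg, e'⟩ := orb t (σ t v - v)
      rw [hσ t] at e
      rw [hσ t, e] at e'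
      obtain ⟨m, hm⟩ := P.2 ⟨g, hg⟩
      have pw : ∀ i : ℕ, ρ (g ^ (2 * i + 1)) (ρ t v - v) = -(ρ t v - v) := fun i => by
        induction i with
        | zero => simpa using e'.symm
        | succ i ih =>
          rw [show 2 * (i + 1) + 1 = 1 + (1 + (2 * i + 1)) by ring, pow_add, pow_add, pow_one,
            rep_mul_apply, rep_mul_apply, ih, map_neg, ← e', neg_neg, ← e']
      obtain ⟨i, hi⟩ := (hp.out.odd_of_ne_two h2).pow (n := m)
      have h3 := pw i
      rw [← hi, show g ^ p ^ m = 1 from congrArg Subtype.val hm, map_one, Module.End.one_apply,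
        eq_neg_iff_add_eq_zero, ← two_nsmul] at h3
      exact sub_eq_zero.1 (eq_zero_of_prime_nsmul cop' hd h3)
    have := subsingleton_of_perfect_of_isSolvable hH' (ft.solvable_of_not_dvd this)
    rw [← hσ, Subsingleton.elim (h : H ⧸ ρ.ker) 1, map_one, Module.End.one_apply]

theorem rep_trivial_of_orb (ft : Coprime.FT.{0}) (P : Sylow p H) (hH : commutator H = ⊤) (n : ℕ) :
    ∀ (V : Type v) [AddCommGroup V] [Module k V] [Finite V] (ρ : Representation k H V),
      Nat.card V = n → (Nat.card V).Coprime (Nat.card H) →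
      (∀ h v, ∃ g ∈ (P : Subgroup H), ρ h v = ρ g v) → ∀ h v, ρ h v = v := by
  induction n using Nat.strong_induction_on with
  | _ n ih =>
  intro V _ _ _ ρ hn cop orb
  by_cases irr : ∀ W : Submodule k V, (∀ g ∈ (P : Subgroup H), ∀ v ∈ W, ρ g v ∈ W) →
      W = ⊥ ∨ W = ⊤
  · exact rep_trivial_of_irr ft ρ P hH cop orb irr
  push Not at irr
  obtain ⟨W, hW, hb, ht⟩ := irr
  have hW' : ∀ g, W ≤ W.comap (ρ g) := fun g v hv => by
    obtain ⟨g', hg', e⟩ := orb g v
    rw [Submodule.mem_comap, e]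
    exact hW g' hg' v hv
  have hc := Submodule.card_eq_card_quotient_mul_card W
  have : Finite (V ⧸ W) := Finite.of_surjective _ (Submodule.Quotient.mk_surjective W)
  have h1 : 1 < Nat.card W := by
    have := Submodule.nontrivial_iff_ne_bot.2 hb
    exact Finite.one_lt_card
  have h2 : 1 < Nat.card (V ⧸ W) := by
    have := Submodule.Quotient.nontrivial_iff.2 ht
    exact Finite.one_lt_card
  have e1 := ih _ (by rw [← hn, hc]; nlinarith) W (ρ.subrepresentation W hW') rfl
    (cop.coprime_dvd_left (hc ▸ Dvd.intro _ rfl)) fun h v => by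
      obtain ⟨g, hg, e⟩ := orb h v
      exact ⟨g, hg, Subtype.ext e⟩
  have e2 := ih _ (by rw [← hn, hc]; nlinarith) (V ⧸ W) (ρ.quotient W hW') rfl
    (cop.coprime_dvd_left (hc ▸ Dvd.intro_left _ rfl)) fun h v => by
      obtain ⟨v, rfl⟩ := Submodule.Quotient.mk_surjective W v
      obtain ⟨g, hg, e⟩ := orb h v
      exact ⟨g, hg, congrArg Submodule.Quotient.mk e⟩
  intro h v
  have m : ∀ h, ρ h v - v ∈ W := fun h => (Submodule.Quotient.eq W).1 (e2 h (Submodule.Quotient.mk v))
  let f : H →* Multiplicative V := MonoidHom.mk' (fun h => .ofAdd (ρ h v - v)) fun a b => by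
    have : ρ a (ρ b v - v) = ρ b v - v := congrArg Subtype.val (e1 a ⟨_, m b⟩)
    rw [← ofAdd_add, rep_mul_apply, ← this, map_sub (ρ a)]
    congr 1
    abel
  have : f h = 1 := Abelianization.commutator_subset_ker f (hH ▸ mem_top h)
  exact sub_eq_zero.1 this

/-- A finite group acting faithfully and coprimely on an abelian group with all orbits of `p`-power
length is solvable. -/
theorem isSolvable_of_orbits_pow (ft : Coprime.FT.{0}) {V : Type*} [AddCommGroup V] [Module k V]
    [Finite V] (ρ : Representation k H V) (hinj : ∀ h, (∀ v, ρ h v = v) → h = 1)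
    (cop : (Nat.card V).Coprime (Nat.card H))
    (orb : ∀ v, ∃ S : Subgroup H, (∀ h ∈ S, ρ h v = v) ∧ ∃ a, S.index = p ^ a) :
    Group.IsSolvable H := by
  obtain ⟨n, hn⟩ : ∃ n, derivedSeries H (n + 1) = derivedSeries H n := by
    obtain ⟨n, hn⟩ := WellFoundedLT.antitone_chain_condition (derivedSeries_antitone H)
    exact ⟨n, (hn _ n.le_succ).symm⟩
  set D := derivedSeries H n
  have hD : commutator D = ⊤ := by
    refine map_injective (subtype_injective D) ?_
    rw [map_subtype_commutator, ← MonoidHom.range_eq_map, range_subtype]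
    exact hn
  obtain ⟨P⟩ : Nonempty (Sylow p D) := inferInstance
  have := rep_trivial_of_orb ft P hD _ V (ρ.comp D.subtype) rfl
    (cop.coprime_dvd_right (card_subgroup_dvd_card D)) fun h v => by
      obtain ⟨S, hS, a, ha⟩ := orb v
      obtain ⟨g, hg, c, hc, rfl⟩ := Transfer.exists_mul_of_coprime_index (H := (P : Subgroup D))
        (K := S.subgroupOf D) ((Nat.Coprime.pow_right a ((Nat.Prime.coprime_iff_not_dvd hp.out).2
          P.not_dvd_index).symm).coprime_dvd_right (ha ▸ relIndex_dvd_index_of_normal' S D)) h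
      refine ⟨g, hg, ?_⟩
      rw [rep_mul_apply]
      exact congrArg _ (hS _ hc)
  exact ⟨n, (eq_bot_iff_forall _).2 fun h hh => hinj h (this ⟨h, hh⟩)⟩

end Cfsg.Agent.Cls
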