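import Cfsg.Agent.Lib.Cls.Basic
import Cfsg.Agent.Lib.Transfer.Camina
import Cfsg.Agent.Lib.PGrp.Aut
import Cfsg.Agent.Lib.Char.Induction

/-!
Groups in which all `q`-elements have classes of prime power size: one prime serves for all.
-/

set_option autoImplicit false

namespace Cfsg.Agent.Cls

open Subgroup

variable {G : Type*} [Group G] [Finite G]

theorem index_inf_of_coprime {H K : Subgroup G} (h : H.index.Coprime K.index) :
    (H ⊓ K).index = H.index * K.index :=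
  le_antisymm index_inf_le (Nat.le_of_dvd (Nat.pos_of_ne_zero index_ne_zero_of_finite)
    (h.mul_dvd_of_dvd_of_dvd (index_dvd_of_le inf_le_left) (index_dvd_of_le inf_le_right)))

omit [Finite G] in
theorem inf_centralizer_le_mul (x y : G) :
    centralizer ({x} : Set G) ⊓ centralizer {y} ≤ centralizer {y * x} := fun g hg =>
  mem_centralizer_single.2 (by
    rw [← mul_assoc, mem_centralizer_single.1 hg.2, mul_assoc, mem_centralizer_single.1 hg.1,
      mul_assoc])

theorem inv_mul_conj_mem_pCore {p : ℕ} [hp : Fact p.Prime] {x y : G} {a c : ℕ}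
    (hx : (centralizer ({x} : Set G)).index = p ^ a) (hy : ¬ p ∣ (centralizer ({y} : Set G)).index)
    (hxy : (centralizer ({y * x} : Set G)).index = p ^ c) (g : G) :
    y⁻¹ * (g * y * g⁻¹) ∈ pCore p G := by
  have hcop : (centralizer ({y} : Set G)).index.Coprime (centralizer ({x} : Set G)).index :=
    hx ▸ ((hp.out.coprime_iff_not_dvd.2 hy).symm.pow_right a)
  have h1 : ∀ g, ∀ z ∈ conjugatesOf x, g * y * g⁻¹ * z ∈ conjugatesOf (y * x) := by
    intro g z hz
    obtain ⟨h, rfl⟩ := isConj_iff.1 hz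
    obtain ⟨s, hs, t, ht, e⟩ := Transfer.exists_mul_of_coprime_index hcop (g⁻¹ * h)
    rw [mem_centralizer_single] at hs ht
    refine isConj_iff.2 ⟨g * s, ?_⟩
    rw [show h = g * (s * t) by rw [← e]; group]
    calc g * s * (y * x) * (g * s)⁻¹ = g * (s * y) * (x * t) * t⁻¹ * (g * s)⁻¹ := by group
      _ = g * (y * s) * (t * x) * t⁻¹ * (g * s)⁻¹ := by rw [hs, ht]
      _ = _ := by group
  have h2 : (conjugatesOf (y * x)).ncard ≤ (conjugatesOf x).ncard := by
    have := index_dvd_of_le (inf_centralizer_le_mul x y)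
    rw [index_inf_of_coprime hcop.symm, hxy, hx] at this
    rw [ncard_conjugatesOf, ncard_conjugatesOf, hxy, hx]
    exact Nat.le_of_dvd (pow_pos hp.out.pos a)
      (((hp.out.coprime_iff_not_dvd.2 hy).pow_left c).dvd_of_dvd_mul_right this)
  have h3 : ∀ g z, z ∈ conjugatesOf x ↔ g * y * g⁻¹ * z ∈ conjugatesOf (y * x) := by
    intro g z
    refine ⟨h1 g z, fun hz => ?_⟩
    have : (fun z => g * y * g⁻¹ * z) '' conjugatesOf x = conjugatesOf (y * x) :=
      Set.eq_of_subset_of_ncard_le (by rintro _ ⟨z, hz, rfl⟩; exact h1 g z hz)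
        (by rwa [Set.ncard_image_of_injective _ (mul_right_injective _)])
    obtain ⟨w, hw, e⟩ := this ▸ hz
    exact mul_left_cancel e ▸ hw
  have h4 : ∀ g z, z ∈ conjugatesOf x ↔ g * z * g⁻¹ ∈ conjugatesOf x := fun g z =>
    ⟨fun h => IsConj.trans h (isConj_iff.2 ⟨g, rfl⟩),
      fun h => IsConj.trans h (isConj_iff.2 ⟨g, rfl⟩).symm⟩
  let T : Subgroup G :=
    { carrier := {t | ∀ z, z ∈ conjugatesOf x ↔ t * z ∈ conjugatesOf x}
      mul_mem' := fun {a b} ha hb z => by rw [mul_assoc, ← ha, ← hb]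
      one_mem' := fun z => by rw [one_mul]
      inv_mem' := fun {a} ha z => by rw [ha (a⁻¹ * z), mul_inv_cancel_left] }
  have : T.Normal := ⟨fun t ht g z => by
    rw [h4 g⁻¹ z, ht, h4 g]
    exact iff_of_eq (congrArg _ (by group))⟩
  let X : SubMulAction T G := ⟨conjugatesOf x, fun t z hz => (t.2 z).1 hz⟩
  have h5 : Nat.card T ∣ Nat.card X := PGrp.card_dvd_of_free fun z =>
    (eq_bot_iff_forall _).2 fun t ht => Subtype.ext (mul_eq_right.1 (congrArg Subtype.val ht))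
  have h6 : Nat.card X = p ^ a := by
    rw [← hx, ← ncard_conjugatesOf, ← Nat.card_coe_set_eq]; rfl
  obtain ⟨n, -, hn⟩ := (Nat.dvd_prime_pow hp.out).1 (h6 ▸ h5)
  refine Core.le_pCore (N := T) (IsPGroup.of_card hn) fun z => ?_
  rw [h3 g z, h3 1 (y⁻¹ * (g * y * g⁻¹) * z)]
  exact iff_of_eq (congrArg _ (by group))

variable {q : ℕ} [hq : Fact q.Prime]

theorem orderOf_eq_pow_of_mem {Q : Subgroup G} (hQ : IsPGroup q Q) {x : G} (hx : x ∈ Q) :
    ∃ k, orderOf x = q ^ k := by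
  obtain ⟨k, hk⟩ := IsPGroup.iff_orderOf.1 hQ ⟨x, hx⟩
  exact ⟨k, by rw [← hk, Subgroup.orderOf_mk]⟩

theorem index_eq_one_of_conj_mem_pCore {p : ℕ} [hp : Fact p.Prime] (hpq : p ≠ q) {y : G}
    (hyq : ∃ k, orderOf y = q ^ k) (hy : ¬ p ∣ (centralizer ({y} : Set G)).index)
    (h : ∀ g, y⁻¹ * (g * y * g⁻¹) ∈ pCore p G) : (centralizer ({y} : Set G)).index = 1 := by
  obtain ⟨P, hP⟩ := exists_sylow_le_of_not_dvd_index hy
  obtain ⟨k, hk⟩ := hyq
  rw [index_centralizer_eq_one_iff, mem_center_iff]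
  intro g
  have hc : Commute (y⁻¹ * (g * y * g⁻¹)) y :=
    mem_centralizer_single.1 (hP (Core.pCore_le_sylow P (h g)))
  have hc2 : Commute y⁻¹ (g * y * g⁻¹) := by
    have := (Commute.refl y).mul_left hc
    rw [mul_inv_cancel_left] at this
    exact this.symm.inv_left
  have h1 : (y⁻¹ * (g * y * g⁻¹)) ^ q ^ k = 1 := by
    rw [hc2.mul_pow, conj_pow, inv_pow, ← hk, pow_orderOf_eq_one]; simp
  obtain ⟨m, hm⟩ := orderOf_eq_pow_of_mem (Core.isPGroup_pCore p) (h g)
  have h2 := Nat.eq_one_of_dvd_coprimes (Nat.coprime_pow_primes m k hp.out hq.out hpq) hm.dvd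
    (orderOf_dvd_of_pow_eq_one h1)
  rw [orderOf_eq_one_iff, inv_mul_eq_one, eq_mul_inv_iff_mul_eq] at h2
  exact h2.symm

/-- The hypothesis: every `q`-element has a class of prime power size. -/
def QBaer (q : ℕ) (G : Type*) [Group G] : Prop :=
  ∀ x : G, (∃ k : ℕ, orderOf x = q ^ k) →
    ∃ (r : ℕ) (a : ℕ), r.Prime ∧ (centralizer ({x} : Set G)).index = r ^ a

omit [Finite G] in
theorem not_dvd_pow_of_ne {p r : ℕ} (hp : p.Prime) (hr : r.Prime) (h : p ≠ r) (b : ℕ) :
    ¬ p ∣ r ^ b := fun e => h ((Nat.prime_dvd_prime_iff_eq hp hr).1 (hp.dvd_of_dvd_pow e))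

/-- Two noncentral `q`-elements with classes of `p`- and `r`-power size. -/
theorem QBaer.two (h : QBaer q G) {x y : G} (hx : ∃ k, orderOf x = q ^ k)
    (hy : ∃ k, orderOf y = q ^ k) {p r a b : ℕ} (hp : p.Prime) (hr : r.Prime) (hpr : p ≠ r)
    (ha : (centralizer ({x} : Set G)).index = p ^ (a + 1))
    (hb : (centralizer ({y} : Set G)).index = r ^ (b + 1)) :
    (p = q ∧ y ∈ pCore q G) ∨ (r = q ∧ x ∈ pCore q G) := by
  obtain ⟨Q⟩ : Nonempty (Sylow q G) := inferInstance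
  have key : ∀ {x y : G} {p r a b c : ℕ}, p.Prime → r.Prime → p ≠ r → (∃ k, orderOf y = q ^ k) →
      (centralizer ({x} : Set G)).index = p ^ a → (centralizer ({y} : Set G)).index = r ^ (b + 1) →
      (centralizer ({y * x} : Set G)).index = p ^ c → p = q ∧ y ∈ pCore q G := by
    intro x y p r a b c hp hr hpr hy ha hb hc
    have := Fact.mk hp
    have h1 : ¬ p ∣ (centralizer ({y} : Set G)).index := hb ▸ not_dvd_pow_of_ne hp hr hpr _
    have h2 := inv_mul_conj_mem_pCore ha h1 hc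
    obtain rfl : p = q := by
      by_contra hne
      have := index_eq_one_of_conj_mem_pCore hne hy h1 h2
      rw [hb] at this
      exact (Nat.one_lt_pow b.succ_ne_zero hr.one_lt).ne' this
    refine ⟨rfl, ?_⟩
    obtain ⟨S, hS⟩ := (Core.isPGroup_zpowers_of_orderOf hy.choose_spec).exists_le_sylow
    rw [Core.pCore_eq_normalCore S]
    intro g
    rw [← mul_inv_cancel_left y (g * y * g⁻¹)]
    exact mul_mem (hS (mem_zpowers y)) (Core.pCore_le_sylow S (h2 g))
  obtain ⟨g, hg⟩ := exists_conj_mem_sylow Q hx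
  obtain ⟨g', hg'⟩ := exists_conj_mem_sylow Q hy
  have e1 := index_centralizer_conj x g⁻¹
  have e2 := index_centralizer_conj y g'⁻¹
  rw [inv_inv] at e1 e2
  have back : ∀ {x g : G}, g⁻¹ * x * g ∈ pCore q G → x ∈ pCore q G := fun {x g} h => by
    simpa [mul_assoc] using (inferInstance : (pCore q G).Normal).conj_mem _ h g
  set x' := g⁻¹ * x * g
  set y' := g'⁻¹ * y * g'
  obtain ⟨s, c, hs, hc⟩ := h (y' * x') (orderOf_eq_pow_of_mem Q.2 (mul_mem hg' hg))
  have hd := index_dvd_of_le (inf_centralizer_le_mul x' y')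
  rw [index_inf_of_coprime (by rw [e1, e2, ha, hb]; exact Nat.coprime_pow_primes _ _ hp hr hpr),
    e1, e2, ha, hb, hc] at hd
  have hc' : (centralizer ({x' * y'} : Set G)).index = s ^ c := by
    rw [← hc, ← index_centralizer_conj (x' * y') y']
    congr 3; group
  by_cases hsp : s = p
  · subst hsp
    exact .inl ((key hp hr hpr (orderOf_eq_pow_of_mem Q.2 hg') (e1.trans ha) (e2.trans hb) hc).imp
      id back)
  · have : (centralizer ({x' * y'} : Set G)).index = r ^ c := by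
      rcases c with _ | c
      · simpa using hc'
      · rcases (hs.dvd_mul.1 ((dvd_pow_self s c.succ_ne_zero).trans hd)) with e | e
        · exact absurd e (not_dvd_pow_of_ne hs hp hsp _)
        · rw [hc', (Nat.prime_dvd_prime_iff_eq hs hr).1 (hs.dvd_of_dvd_pow e)]
    exact .inr ((key hr hp hpr.symm (orderOf_eq_pow_of_mem Q.2 hg) (e2.trans hb) (e1.trans ha)
      this).imp id back)

theorem QBaer.not_mixed (h : QBaer q G) {x y : G} (hx : ∃ k, orderOf x = q ^ k)
    (hy : ∃ k, orderOf y = q ^ k) {r a b : ℕ} (hr : r.Prime) (hqr : q ≠ r)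
    (ha : (centralizer ({x} : Set G)).index = q ^ (a + 1))
    (hb : (centralizer ({y} : Set G)).index = r ^ (b + 1)) : False := by
  have := Fact.mk hr
  set Q := pCore q G
  have dich : ∀ w : G, (∃ k, orderOf w = q ^ k) → w ∈ Q ∧
      ((∃ c, (centralizer ({w} : Set G)).index = q ^ c) ∨ w ∈ centralizer (Q : Set G)) := by
    intro w hw
    obtain ⟨s, c, hs, hc⟩ := h w hw
    by_cases h1 : ∃ c, (centralizer ({w} : Set G)).index = q ^ c
    · exact ⟨Transfer.mem_pCore_of_index_eq_pow hw.choose_spec h1.choose_spec, .inl h1⟩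
    have hsq : q ≠ s := fun e => h1 ⟨c, e ▸ hc⟩
    obtain ⟨c, rfl⟩ : ∃ d, c = d + 1 := Nat.exists_eq_succ_of_ne_zero fun e =>
      h1 ⟨0, by rw [hc, e, pow_zero, pow_zero]⟩
    refine ⟨((h.two hx hw hq.out hs hsq ha hc).resolve_right fun e => hsq e.1.symm).2, .inr ?_⟩
    obtain ⟨P, hP⟩ := exists_sylow_le_of_not_dvd_index (p := q) (H := centralizer {w})
      (hc ▸ not_dvd_pow_of_ne hq.out hs hsq _)
    exact fun g hg => mem_centralizer_single.1 (hP (Core.pCore_le_sylow P hg))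
  obtain ⟨S⟩ : Nonempty (Sylow q G) := inferInstance
  have hSQ : (S : Subgroup G) = Q := le_antisymm
    (fun w hw => (dich w (orderOf_eq_pow_of_mem S.2 hw)).1) (Core.pCore_le_sylow S)
  obtain ⟨R⟩ : Nonempty (Sylow r G) := inferInstance
  have cj : ∀ w ∈ Q, w ∉ centralizer (Q : Set G) →
      ∃ u ∈ Q, u⁻¹ * w * u ∈ centralizer ((R : Subgroup G) : Set G) := by
    intro w hw hwc
    obtain ⟨c, hc⟩ := (dich w (orderOf_eq_pow_of_mem (Core.isPGroup_pCore q) hw)).2.resolve_right hwc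
    obtain ⟨g, hg⟩ := exists_conj_mem_centralizer_sylow R
      (hc ▸ not_dvd_pow_of_ne hr hq.out hqr.symm c)
    obtain ⟨s, hs, u, hu, rfl⟩ := Transfer.exists_mul_of_coprime_index (H := centralizer {w})
      (K := (S : Subgroup G)) (hc ▸ (hq.out.coprime_iff_not_dvd.2 S.not_dvd_index).pow_left c) g
    refine ⟨u, hSQ ▸ hu, ?_⟩
    rwa [show (s * u)⁻¹ * w * (s * u) = u⁻¹ * (s⁻¹ * (w * s)) * u by group,
      ← mem_centralizer_single.1 hs, inv_mul_cancel_left] at hg
  have dec : ∀ u ∈ Q, ∃ z ∈ centralizer (Q : Set G), ∃ c ∈ centralizer ((R : Subgroup G) : Set G),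
      c ∈ Q ∧ u = z * c := by
    have : (center Q ⊔ (centralizer ((R : Subgroup G) : Set G)).subgroupOf Q) = ⊤ := by
      refine Char.eq_top_of_forall_exists_conj_mem _ fun w => ?_
      by_cases hw : (w : G) ∈ centralizer (Q : Set G)
      · refine ⟨1, mem_sup_left (mem_center_iff.2 fun g => Subtype.ext ?_)⟩
        simpa using hw g g.2
      · obtain ⟨u, hu, e⟩ := cj w w.2 hw
        exact ⟨⟨u, hu⟩, mem_sup_right e⟩
    intro u hu
    have h1 : (⟨u, hu⟩ : Q) ∈ (center Q ⊔ (centralizer ((R : Subgroup G) : Set G)).subgroupOf Q) :=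
      this ▸ mem_top _
    obtain ⟨z, hz, c, hc, e⟩ := mem_sup_of_normal_left.1 h1
    exact ⟨z, fun g hg => congrArg Subtype.val (mem_center_iff.1 hz ⟨g, hg⟩), c, hc, c.2,
      (congrArg Subtype.val e).symm⟩
  have hxQ := (dich x hx).1
  have hxc : x ∉ centralizer (Q : Set G) := fun e =>
    not_dvd_index_of_sylow_le (Q := S) (H := centralizer {x})
      (fun g hg => mem_centralizer_single.2 (e g (hSQ ▸ hg))) (ha ▸ dvd_pow_self q a.succ_ne_zero)
  have hyQ := (dich y hy).1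
  have hyc : y ∈ centralizer (Q : Set G) := (dich y hy).2.resolve_left fun ⟨c, hc⟩ =>
    not_dvd_pow_of_ne hr hq.out hqr.symm c (hc ▸ hb ▸ dvd_pow_self r b.succ_ne_zero)
  obtain ⟨z, hz, x', hx', hx'Q, rfl⟩ := dec x hxQ
  obtain ⟨u, hu, e⟩ := cj (x' * y) (mul_mem hx'Q hyQ) fun e =>
    hxc (mul_mem hz ((mul_mem_cancel_right hyc).1 e))
  obtain ⟨z', hz', c, hc, hcQ, rfl⟩ := dec u hu
  have e2 : (z' * c)⁻¹ * (x' * y) * (z' * c) = c⁻¹ * x' * c * y := by
    calc _ = c⁻¹ * z'⁻¹ * (x' * y * z') * c := by group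
      _ = c⁻¹ * x' * (y * c) := by rw [hz' _ (mul_mem hx'Q hyQ)]; group
      _ = _ := by rw [← hyc c hcQ]; group
  rw [e2, mul_mem_cancel_left (mul_mem (mul_mem (inv_mem hc) hx') hc)] at e
  exact not_dvd_index_of_sylow_le (Q := R) (H := centralizer {y})
    (fun g hg => mem_centralizer_single.2 (e g hg)) (hb ▸ dvd_pow_self r b.succ_ne_zero)

theorem QBaer.exists_prime (h : QBaer q G) : ∃ p : ℕ, p.Prime ∧
    ∀ x : G, (∃ k, orderOf x = q ^ k) → ∃ a, (centralizer ({x} : Set G)).index = p ^ a := by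
  by_cases h1 : ∀ x : G, (∃ k, orderOf x = q ^ k) → ∃ a, (centralizer ({x} : Set G)).index = q ^ a
  · exact ⟨q, hq.out, h1⟩
  push Not at h1
  obtain ⟨y, hy, hyq⟩ := h1
  obtain ⟨r, b, hr, hb⟩ := h y hy
  have hqr : q ≠ r := fun e => hyq b (e ▸ hb)
  obtain ⟨b, rfl⟩ : ∃ d, b = d + 1 := Nat.exists_eq_succ_of_ne_zero fun e =>
    hyq 0 (by rw [hb, e, pow_zero, pow_zero])
  refine ⟨r, hr, fun x hx => ?_⟩
  by_contra hcon
  push Not at hcon
  obtain ⟨s, a, hs, ha⟩ := h x hx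
  have hsr : s ≠ r := fun e => hcon a (e ▸ ha)
  obtain ⟨a, rfl⟩ : ∃ d, a = d + 1 := Nat.exists_eq_succ_of_ne_zero fun e =>
    hcon 0 (by rw [ha, e, pow_zero, pow_zero])
  obtain rfl := ((h.two hx hy hs hr hsr ha hb).resolve_right fun e => hqr e.1.symm).1
  exact h.not_mixed hx hy hr hqr ha hb

end Cfsg.Agent.Cls
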