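import Mathlib
import Cfsg.Prelude.Def_SolvableStructure
import Cfsg.Agent.Lib.Cls.Basic
import Cfsg.Agent.Lib.Core.Fitting

/-!
# Cls/Supersolvable: supersolvable groups, Sylow tower; normal Hall subgroups by counting
-/

set_option autoImplicit false

namespace Cfsg.Agent.Cls

open Subgroup

universe u

variable {G : Type*} [Group G] {G' : Type*} [Group G']

theorem isSupersolvable_of_surjective {f : G →* G'} (hf : Function.Surjective f)
    (h : IsSupersolvable G) : IsSupersolvable G' := by
  obtain ⟨n, H, h0, h1, h2, h3⟩ := h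
  refine ⟨n, fun i => (H i).map f, by simp [h0], ?_, fun i => (h2 i).map f hf, fun i => ?_⟩
  · simp only [h1]; exact map_top_of_surjective f hf
  · obtain ⟨g, hg⟩ := h3 i
    exact ⟨f g, by simp only [hg, Subgroup.map_sup, MonoidHom.map_zpowers]⟩

theorem isSupersolvable_quotient (N : Subgroup G) [N.Normal] (h : IsSupersolvable G) :
    IsSupersolvable (G ⧸ N) := isSupersolvable_of_surjective (QuotientGroup.mk'_surjective N) h

/-- A nontrivial supersolvable group has a nontrivial cyclic normal subgroup. -/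
theorem exists_normal_zpowers_of_isSupersolvable [Nontrivial G] (h : IsSupersolvable G) :
    ∃ g : G, g ≠ 1 ∧ (zpowers g).Normal := by
  obtain ⟨n, H, h0, h1, h2, h3⟩ := h
  by_contra hne
  push Not at hne
  have : ∀ i, H i = ⊥ := by
    intro i
    induction i using Fin.induction with
    | zero => exact h0
    | succ i ih =>
      obtain ⟨g, hg⟩ := h3 i
      rw [ih, bot_sup_eq] at hg
      by_contra hb
      refine hne g ?_ (hg ▸ h2 _)
      rintro rfl
      exact hb (by simp [hg])
  exact top_ne_bot (h1.symm.trans (this _))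

/-- Every subgroup of a cyclic normal subgroup is normal. -/
theorem normal_of_le_zpowers {g : G} (hg : (zpowers g).Normal) {K : Subgroup G}
    (hK : K ≤ zpowers g) : K.Normal := by
  refine ⟨fun k hk x => ?_⟩
  obtain ⟨m, rfl⟩ := hK hk
  obtain ⟨a, ha⟩ := hg.conj_mem g (mem_zpowers g) x
  simp only at ha hk ⊢
  rw [← conj_zpow, ← ha, ← zpow_mul, mul_comm, zpow_mul]
  exact zpow_mem hk a

/-- A nontrivial finite supersolvable group has a normal subgroup of prime order. -/
theorem exists_normal_prime_of_isSupersolvable [Finite G] [Nontrivial G] (h : IsSupersolvable G) :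
    ∃ N : Subgroup G, N.Normal ∧ (Nat.card N).Prime := by
  obtain ⟨g, hg, hn⟩ := exists_normal_zpowers_of_isSupersolvable h
  have h1 : Nat.card (zpowers g) ≠ 1 := by rwa [Nat.card_zpowers, Ne, orderOf_eq_one_iff]
  obtain ⟨q, hq, hd⟩ := Nat.exists_prime_and_dvd h1
  have : Fact q.Prime := ⟨hq⟩
  obtain ⟨x, hx⟩ := exists_prime_orderOf_dvd_card' q hd
  refine ⟨zpowers (x : G), normal_of_le_zpowers hn (zpowers_le.2 x.2), ?_⟩
  rwa [Nat.card_zpowers, orderOf_coe, hx]

theorem supersolvable_induction {P : ∀ (G : Type u) [Group G] [Finite G], Prop}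
    (h1 : ∀ (G : Type u) [Group G] [Finite G], Subsingleton G → P G)
    (h2 : ∀ (G : Type u) [Group G] [Finite G] (N : Subgroup G) [N.Normal], IsSupersolvable G →
      (Nat.card N).Prime → P (G ⧸ N) → P G)
    (G : Type u) [Group G] [Finite G] (h : IsSupersolvable G) : P G := by
  revert h
  refine Core.induction_on_card (P := fun G _ _ => IsSupersolvable G → P G) ?_ G
  intro G _ _ ih h
  rcases subsingleton_or_nontrivial G with hs | hs
  · exact h1 G hs
  obtain ⟨N, hN, hp⟩ := exists_normal_prime_of_isSupersolvable h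
  refine h2 G N h hp (ih _ (Core.card_quotient_lt ?_) (isSupersolvable_quotient N h))
  rintro rfl
  simp [Nat.not_prime_one] at hp

theorem isSolvable_of_isSupersolvable {G : Type u} [Group G] [Finite G] (h : IsSupersolvable G) :
    Group.IsSolvable G := by
  refine supersolvable_induction (P := fun G _ _ => Group.IsSolvable G) ?_ ?_ G h
  · intro G _ _ hs; infer_instance
  · intro G _ _ N _ _ hp hq
    have : Fact (Nat.card N).Prime := ⟨hp⟩
    have := isCyclic_of_prime_card (α := N) rfl
    have : Group.IsSolvable N := Group.isSolvable_of_comm fun a b => (IsCyclic.isMulCommutative).is_comm.comm a b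
    exact Group.isSolvable_of_ker_le_range N.subtype (QuotientGroup.mk' N) (by simp)

/-- An element whose order lies in `π` belongs to a normal subgroup of `π'`-index. -/
theorem mem_of_pi_of_normal [Finite G] {π : Set ℕ} {N : Subgroup G} [N.Normal]
    (hN : ∀ q, q.Prime → q ∣ N.index → q ∉ π) {x : G}
    (hx : ∀ q, q.Prime → q ∣ orderOf x → q ∈ π) : x ∈ N := by
  rw [← zpowers_le]
  refine Core.le_of_coprime_card_index ?_
  rw [Nat.card_zpowers]
  exact coprime_of_pi hx hN

/-- An element of order prime to `q - 1` centralizes a normal subgroup of prime order `q`. -/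
theorem mem_centralizer_of_card_prime [Finite G] {N : Subgroup G} [N.Normal]
    (hp : (Nat.card N).Prime) {x : G} (hx : (orderOf x).Coprime (Nat.card N - 1)) :
    x ∈ centralizer (N : Set G) := by
  have : Fact (Nat.card N).Prime := ⟨hp⟩
  have := isCyclic_of_prime_card (α := N) rfl
  have h1 : orderOf (MulAut.conjNormal (H := N) x) ∣ Nat.card N - 1 := by
    rw [← Nat.totient_prime hp, ← IsCyclic.card_mulAut]
    exact orderOf_dvd_natCard _
  have h2 : orderOf (MulAut.conjNormal (H := N) x) ∣ orderOf x := orderOf_map_dvd _ _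
  have h3 : MulAut.conjNormal (H := N) x = 1 :=
    orderOf_eq_one_iff.1 (Nat.eq_one_of_dvd_coprimes hx h2 h1)
  intro n hn
  have := congrArg (fun φ : MulAut N => (φ ⟨n, hn⟩ : G)) h3
  simp only [MulAut.conjNormal_apply, MulAut.one_apply] at this
  rw [mul_inv_eq_iff_eq_mul] at this
  exact this.symm

/-- **Sylow tower**: in a supersolvable group the elements whose order has only prime
divisors `≥ t` form a normal Hall subgroup. -/
theorem exists_normal_hall_ge_of_isSupersolvable {G : Type u} [Group G] [Finite G]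
    (h : IsSupersolvable G) (t : ℕ) : ∃ K : Subgroup G, K.Normal ∧
      (∀ q, q.Prime → q ∣ Nat.card K → t ≤ q) ∧ ∀ q, q.Prime → q ∣ K.index → q < t := by
  refine supersolvable_induction (P := fun G _ _ => ∃ K : Subgroup G, K.Normal ∧
      (∀ q, q.Prime → q ∣ Nat.card K → t ≤ q) ∧ ∀ q, q.Prime → q ∣ K.index → q < t) ?_ ?_ G h
  · intro G _ _ hs
    refine ⟨⊤, inferInstance, fun q hq hd => ?_, fun q hq hd => ?_⟩
    · rw [card_top, Nat.card_unique] at hd; exact absurd hd hq.not_dvd_one
    · rw [index_top] at hd; exact absurd hd hq.not_dvd_one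
  · rintro G _ _ N _ _ hp ⟨K, hK, hK1, hK2⟩
    set K1 := K.comap (QuotientGroup.mk' N) with hK1def
    have hc : Nat.card K1 = Nat.card N * Nat.card K := Core.card_comap_mk N K
    have hi : K1.index = K.index := index_comap_of_surjective _ (QuotientGroup.mk'_surjective N)
    by_cases ht : t ≤ Nat.card N
    · refine ⟨K1, inferInstance, fun q hq hd => ?_, fun q hq hd => hK2 q hq (hi ▸ hd)⟩
      rw [hc] at hd
      rcases hq.dvd_mul.1 hd with h1 | h1
      · rwa [(Nat.prime_dvd_prime_iff_eq hq hp).1 h1]
      · exact hK1 q hq h1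
    push Not at ht
    have hNK : N ≤ K1 := Core.le_comap_mk N K
    have hcN : Nat.card (N.subgroupOf K1) = Nat.card N := Core.card_subgroupOf_of_le hNK
    have hiN : (N.subgroupOf K1).index = Nat.card K := by
      have := (N.subgroupOf K1).card_mul_index
      rw [hcN, hc] at this
      exact Nat.eq_of_mul_eq_mul_left hp.pos this
    have hcop : (Nat.card (N.subgroupOf K1)).Coprime (N.subgroupOf K1).index := by
      rw [hcN, hiN, Nat.Prime.coprime_iff_not_dvd hp]
      exact fun hd => absurd (hK1 _ hp hd) (by omega)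
    obtain ⟨L, hL⟩ := exists_right_complement'_of_coprime hcop
    have hLc : Nat.card L = Nat.card K := by rw [← hiN, hL.symm.index_eq_card]
    have hLi : L.index = Nat.card N := by rw [hL.index_eq_card, hcN]
    -- `L` centralizes `N`
    have hLN : ∀ l ∈ L, (l : G) ∈ centralizer (N : Set G) := by
      intro l hl
      refine mem_centralizer_of_card_prime hp ?_
      rw [Core.coprime_iff_forall_prime]
      intro q hq h1 h2
      have h3 : q ∣ Nat.card K := by
        rw [← hLc]
        refine h1.trans ?_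
        rw [orderOf_coe]; exact L.orderOf_dvd_natCard hl
      have := hK1 q hq h3
      have := Nat.le_of_dvd (by have := hp.two_le; omega) h2
      omega
    have hLn : L.Normal := by
      refine ⟨fun l hl g => ?_⟩
      obtain ⟨⟨n, m⟩, rfl⟩ := hL.2 g
      have h1 : (m : K1) * l * (m : K1)⁻¹ ∈ L := mul_mem (mul_mem m.2 hl) (inv_mem m.2)
      have h2 : (n : K1) * ((m : K1) * l * (m : K1)⁻¹) = ((m : K1) * l * (m : K1)⁻¹) * n :=
        Subtype.ext (hLN _ h1 _ n.2)
      simp only
      rw [show (n : K1) * m * l * ((n : K1) * m)⁻¹ = n * (m * l * (m : K1)⁻¹) * (n : K1)⁻¹ by group, h2,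
        mul_inv_cancel_right]
      exact h1
    refine ⟨L.map K1.subtype, ⟨?_⟩, fun q hq hd => ?_, fun q hq hd => ?_⟩
    · rintro _ ⟨l, hl, rfl⟩ g
      have h1 : g * l * g⁻¹ ∈ K1 := (inferInstance : K1.Normal).conj_mem _ l.2 g
      refine ⟨⟨_, h1⟩, ?_, rfl⟩
      refine mem_of_pi_of_normal (π := {q | t ≤ q}) (fun q hq hd => ?_) fun q hq hd => ?_
      · rw [hLi] at hd
        rw [(Nat.prime_dvd_prime_iff_eq hq hp).1 hd]; simpa using ht
      · rw [← orderOf_coe] at hd
        have h2 : orderOf (g * l * g⁻¹) = orderOf l := by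
          rw [← orderOf_coe]; exact (MulAut.conj g).orderOf_eq _
        simp only at hd
        rw [h2] at hd
        exact hK1 q hq (hLc ▸ hd.trans (L.orderOf_dvd_natCard hl))
    · rw [Core.card_map_subtype, hLc] at hd; exact hK1 q hq hd
    · rw [index_map_subtype, hLi, hi] at hd
      rcases hq.dvd_mul.1 hd with h1 | h1
      · rwa [(Nat.prime_dvd_prime_iff_eq hq hp).1 h1]
      · exact hK2 q hq h1

/-- The `π`-elements of a group with a normal Hall `π`-subgroup are the elements of it. -/
theorem card_pi_elements_of_normal_hall [Finite G] {π : Set ℕ} {N : Subgroup G} [N.Normal]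
    (h1 : ∀ q, q.Prime → q ∣ Nat.card N → q ∈ π) (h2 : ∀ q, q.Prime → q ∣ N.index → q ∉ π) :
    Nat.card {x : G // ∀ q, q.Prime → q ∣ orderOf x → q ∈ π} = Nat.card N :=
  Nat.card_congr (Equiv.subtypeEquivRight fun _ => ⟨mem_of_pi_of_normal h2,
    fun hx q hq hd => h1 q hq (hd.trans (N.orderOf_dvd_natCard hx))⟩)

/-- A `π`-subgroup with as many elements as there are `π`-elements is normal. -/
theorem normal_of_card_pi_elements_le [Finite G] {π : Set ℕ} {N : Subgroup G}
    (h1 : ∀ q, q.Prime → q ∣ Nat.card N → q ∈ π)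
    (h2 : Nat.card {x : G // ∀ q, q.Prime → q ∣ orderOf x → q ∈ π} ≤ Nat.card N) : N.Normal := by
  have h3 : (N : Set G) = {x : G | ∀ q, q.Prime → q ∣ orderOf x → q ∈ π} := by
    refine Set.eq_of_subset_of_ncard_le
      (fun x hx q hq hd => h1 q hq (hd.trans (N.orderOf_dvd_natCard hx))) ?_
    rw [← Nat.card_coe_set_eq, ← Nat.card_coe_set_eq]; exact h2
  refine ⟨fun n hn g => ?_⟩
  rw [← SetLike.mem_coe, h3] at hn ⊢
  have : orderOf (g * n * g⁻¹) = orderOf n := (MulAut.conj g).orderOf_eq _
  simpa only [Set.mem_ofPred_eq, this] using hn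

/-- Two `π`-numbers with `π'`-cofactors in the same number are equal. -/
theorem pi_part_unique {π : Set ℕ} {a b c d : ℕ} (h : a * b = c * d)
    (ha : ∀ q, q.Prime → q ∣ a → q ∈ π) (hb : ∀ q, q.Prime → q ∣ b → q ∉ π)
    (hc : ∀ q, q.Prime → q ∣ c → q ∈ π) (hd : ∀ q, q.Prime → q ∣ d → q ∉ π) : a = c :=
  Nat.dvd_antisymm ((coprime_of_pi ha hd).dvd_of_dvd_mul_right (h ▸ dvd_mul_right a b))
    ((coprime_of_pi hc hb).dvd_of_dvd_mul_right (h ▸ dvd_mul_right c d))

/-- Groups of the same order type have the same number of elements with order in any set. -/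
theorem card_orderOf_mem_eq {H : Type*} [Group H]
    [Finite G] [Finite H]
    (hT : ∀ m : ℕ, Nat.card {g : G // orderOf g = m} = Nat.card {h : H // orderOf h = m})
    (S : ℕ → Prop) : Nat.card {g : G // S (orderOf g)} = Nat.card {h : H // S (orderOf h)} := by
  have e : ∀ m, {g : G // orderOf g = m} ≃ {h : H // orderOf h = m} := fun m =>
    (Finite.card_eq.1 (hT m)).some
  let E : G ≃ H := (Equiv.sigmaFiberEquiv (orderOf : G → ℕ)).symm.trans
    ((Equiv.sigmaCongrRight e).trans (Equiv.sigmaFiberEquiv (orderOf : H → ℕ)))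
  have hE : ∀ g, orderOf (E g) = orderOf g := fun g => (e (orderOf g) ⟨g, rfl⟩).2
  exact Nat.card_congr (E.subtypeEquiv fun g => by rw [hE])

theorem card_eq_of_orderType {H : Type*} [Group H] [Finite G] [Finite H]
    (hT : ∀ m : ℕ, Nat.card {g : G // orderOf g = m} = Nat.card {h : H // orderOf h = m}) :
    Nat.card G = Nat.card H := by
  simpa using card_orderOf_mem_eq hT (fun _ => True)

end Cfsg.Agent.Cls
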