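import Mathlib
import Cfsg.Agent.Lib.Cls.Solv
import Cfsg.Agent.Lib.Cls.Supersolvable
import Cfsg.Agent.Lib.Transfer.Gruen
import Cfsg.Agent.Lib.Schur.CyclicSylow
import Cfsg.Agent.Lib.PGrp.Frattini

/-!
# Cls/SqFree: solvable groups with square-free class sizes
-/

set_option autoImplicit false
set_option linter.unusedSectionVars false

namespace Cfsg.Agent.Cls

open Subgroup
open scoped commutatorElement

universe u

section Super

variable {G : Type*} [Group G]

theorem isSupersolvable_of_quotient_zpowers {z : G} [hz : (zpowers z).Normal]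
    (h : IsSupersolvable (G ⧸ zpowers z)) : IsSupersolvable G := by
  obtain ⟨n, H, h0, h1, h2, h3⟩ := h
  refine ⟨n + 1, Fin.cons ⊥ fun i => (H i).comap (QuotientGroup.mk' _), rfl, ?_, fun i => ?_,
    fun i => ?_⟩
  · rw [← Fin.succ_last, Fin.cons_succ, h1, comap_top]
  · induction i using Fin.cases with
    | zero => exact normal_bot
    | succ i => exact (h2 i).comap _
  · induction i using Fin.cases with
    | zero =>
      refine ⟨z, ?_⟩
      rw [Fin.cons_succ, Fin.castSucc_zero, Fin.cons_zero, h0, bot_sup_eq, MonoidHom.comap_bot,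
        QuotientGroup.ker_mk']
    | succ i =>
      obtain ⟨g, hg⟩ := h3 i
      obtain ⟨g, rfl⟩ := QuotientGroup.mk'_surjective _ g
      refine ⟨g, ?_⟩
      rw [Fin.cons_succ, ← Fin.succ_castSucc, Fin.cons_succ, hg, ← MonoidHom.map_zpowers]
      conv_lhs => rw [← map_comap_eq_self_of_surjective (QuotientGroup.mk'_surjective (zpowers z))
        (H i.castSucc), ← Subgroup.map_sup, Core.comap_map_mk]
      exact sup_eq_left.mpr ((Core.le_comap_mk _ _).trans le_sup_left)

theorem commutator_quotient (N : Subgroup G) [N.Normal] :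
    commutator (G ⧸ N) = (commutator G).map (QuotientGroup.mk' N) := by
  rw [commutator_def, commutator_def, Subgroup.map_commutator,
    map_top_of_surjective _ (QuotientGroup.mk'_surjective N)]

theorem isCyclic_map {G' : Type*} [Group G'] (f : G →* G') {H : Subgroup G} (h : IsCyclic H) :
    IsCyclic (H.map f) := isCyclic_of_surjective _ (f.subgroupMap_surjective H)

theorem isSupersolvable_of_isCyclic_commutator (G : Type u) [Group G] [Finite G] :
    IsCyclic (commutator G) → IsSupersolvable G := by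
  refine Core.induction_on_card (P := fun G _ _ => IsCyclic (commutator G) → IsSupersolvable G)
    (fun G _ _ ih h => ?_) G
  rcases subsingleton_or_nontrivial G with hG | hG
  · exact ⟨0, fun _ => ⊥, rfl, Subsingleton.elim _ _, fun _ => normal_bot, fun i => i.elim0⟩
  have : ∃ z : G, z ≠ 1 ∧ (zpowers z).Normal := by
    by_cases hc : commutator G = ⊥
    · obtain ⟨z, hz⟩ := exists_ne (1 : G)
      exact ⟨z, hz, PGrp.normal_of_commutator_le (hc ▸ bot_le)⟩
    · obtain ⟨z, hz⟩ := (Subgroup.isCyclic_iff_exists_zpowers_eq_top _).mp h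
      exact ⟨z, fun e => hc (by rw [← hz, e, zpowers_one_eq_bot]), hz ▸ inferInstance⟩
  obtain ⟨z, hz1, hz⟩ := this
  refine isSupersolvable_of_quotient_zpowers (z := z)
    (ih _ (Core.card_quotient_lt (by simpa using hz1)) ?_)
  rw [commutator_quotient]
  exact isCyclic_map _ h

theorem commutatorElement_pow_right {a x : G} (h : Commute ⁅a, x⁆ x) (n : ℕ) :
    ⁅a, x ^ n⁆ = ⁅a, x⁆ ^ n := by
  have h1 : a * x * a⁻¹ = ⁅a, x⁆ * x := by rw [commutatorElement_def]; group
  rw [commutatorElement_def, ← conj_pow, h1, h.mul_pow]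
  group

theorem eq_of_card_dvd_prime [Finite G] {p : ℕ} (hp : p.Prime) {K L : Subgroup G}
    (hK : Nat.card K ∣ p) (hL : Nat.card L ∣ p) {u : G} (hu : u ≠ 1) (h1 : u ∈ K) (h2 : u ∈ L) :
    K = L := by
  have key : ∀ K : Subgroup G, Nat.card K ∣ p → u ∈ K → K = zpowers u := by
    intro K hK h1
    have h3 := card_dvd_of_le (zpowers_le.mpr h1)
    have h4 : Nat.card (zpowers u) = p :=
      ((Nat.dvd_prime hp).mp (h3.trans hK)).resolve_left (by
        rw [card_eq_one, zpowers_eq_bot]; exact hu)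
    exact (Core.eq_of_le_of_card_eq (zpowers_le.mpr h1)
      (Nat.dvd_antisymm h3 (h4 ▸ hK))).symm
  rw [key K hK h1, key L hL h2]

end Super

section PCase

variable {G : Type*} [Group G] [Finite G] {p : ℕ} [hp : Fact p.Prime] {P : Subgroup G}

theorem le_or_inf_le {K D : Subgroup G} (hK : K.relIndex P ∣ p) (hKD : P ⊓ K ≤ D) :
    P ≤ D ∨ P ⊓ D ≤ K := by
  rcases (Nat.dvd_prime hp.out).mp hK with h | h
  · rw [relIndex_eq_one] at h
    exact Or.inr (inf_le_left.trans h)
  · have hc := PGrp.isCoatom_of_index_eq h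
    have hle : K.subgroupOf P ≤ D.subgroupOf P := fun x hx => hKD ⟨x.2, hx⟩
    rcases hle.eq_or_lt with e | e
    · refine Or.inr fun x hx => ?_
      have : (⟨x, hx.1⟩ : P) ∈ D.subgroupOf P := hx.2
      rw [← e] at this
      exact this
    · exact Or.inl (subgroupOf_eq_top.mp (hc.2 _ e))

theorem commutatorElement_mem_center (hP : IsPGroup p P)
    (hI : ∀ x : G, (centralizer ({x} : Set G)).relIndex P ∣ p) {a b : G} (ha : a ∈ P)
    (hb : b ∈ P) : ⁅a, b⁆ ∈ center G := by
  rw [mem_center_iff]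
  intro g
  refine (mem_centralizer_single.mp ?_).symm
  rcases (Nat.dvd_prime hp.out).mp (hI g) with h | h
  · rw [relIndex_eq_one] at h
    exact h (mul_mem (mul_mem (mul_mem ha hb) (inv_mem ha)) (inv_mem hb))
  · have := PGrp.normal_of_index_eq hP h
    exact PGrp.commutator_le_of_index_eq h
      (commutator_mem_commutator (mem_top (⟨a, ha⟩ : P)) (mem_top ⟨b, hb⟩))

variable [P.Normal]

theorem commutatorElement_mem_left {a : G} (ha : a ∈ P) (x : G) : ⁅a, x⁆ ∈ P := by
  have : ⁅a, x⁆ = a * (x * a⁻¹ * x⁻¹) := by rw [commutatorElement_def]; group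
  rw [this]
  exact mul_mem ha (‹P.Normal›.conj_mem _ (inv_mem ha) x)

theorem le_centralizer_self_of_coprime (hP : IsPGroup p P)
    (hI : ∀ x : G, (centralizer ({x} : Set G)).relIndex P ∣ p) {t : G}
    (ht : (orderOf t).Coprime p) (htP : t ∉ centralizer (P : Set G)) :
    P ≤ centralizer (P : Set G) := by
  set C := centralizer ({t} : Set G) with hC
  have hPC : ¬ P ≤ C := fun h => htP (le_centralizer_single_iff.mp h)
  obtain ⟨a, ha, hw⟩ : ∃ a ∈ P, ⁅a, t⁆ ∉ C := by
    by_contra hn
    push Not at hn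
    refine hPC fun a ha => ?_
    have h1 := commutatorElement_pow_right (mem_centralizer_single_commute.mp (hn a ha)) (orderOf t)
    rw [pow_orderOf_eq_one, commutatorElement_one_right] at h1
    have h2 := Transfer.eq_one_of_coprime_of_mem_isPGroup hP
      (Nat.Coprime.coprime_dvd_left (orderOf_dvd_of_pow_eq_one h1.symm) ht)
      (commutatorElement_mem_left ha t)
    exact mem_centralizer_single_commute.mpr (commutatorElement_eq_one_iff_commute.mp h2)
  have hwP := commutatorElement_mem_left ha t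
  have h1 : ∀ c ∈ P ⊓ C, P ≤ centralizer ({c} : Set G) := by
    intro c hc
    have hct : Commute c t := mem_centralizer_single_commute.mp hc.2
    obtain ⟨k, hk⟩ := (IsPGroup.iff_orderOf.mp hP) ⟨c, hc.1⟩
    rw [orderOf_mk] at hk
    have e := centralizer_single_mul hct (hk ▸ (ht.pow_right k).symm)
    have h2 : P ⊓ C ≤ centralizer ({c} : Set G) :=
      ((le_or_inf_le (D := C) (hI (c * t)) (e ▸ inf_le_right.trans inf_le_right)).resolve_left
        hPC).trans (e ▸ inf_le_left)
    refine (le_or_inf_le (hI t) h2).resolve_right fun h => hw (h (mem_inf.2 ⟨hwP, ?_⟩))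
    have hz := mem_center_iff.mp (commutatorElement_mem_center hP hI hc.1 ha)
    rw [mem_centralizer_single]
    have h3 : c * a = ⁅c, a⁆ * a * c := by rw [commutatorElement_def]; group
    have h4 : c * a⁻¹ = a⁻¹ * ⁅c, a⁆⁻¹ * c := by rw [commutatorElement_def]; group
    symm
    calc c * ⁅a, t⁆ = c * a * t * a⁻¹ * t⁻¹ := by rw [commutatorElement_def]; group
      _ = ⁅c, a⁆ * a * (c * t) * a⁻¹ * t⁻¹ := by rw [h3]; group
      _ = ⁅c, a⁆ * (a * t) * (c * a⁻¹) * t⁻¹ := by rw [hct.eq]; group
      _ = ⁅c, a⁆ * (a * t * a⁻¹) * ⁅c, a⁆⁻¹ * (c * t⁻¹) := by rw [h4]; group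
      _ = ⁅a, t⁆ * c := by
        rw [← hz, hct.inv_right.eq, commutatorElement_def a t]; group
  have h2 : ∀ b ∈ P, P ⊓ C ≤ centralizer ({b} : Set G) := fun b hb c hc =>
    mem_centralizer_single.mpr (mem_centralizer_single.mp (h1 c hc hb)).symm
  have h3 : P ≤ centralizer ({⁅a, t⁆} : Set G) :=
    (le_or_inf_le (hI t) (h2 _ hwP)).resolve_right fun h =>
      hw (h ⟨hwP, self_mem_centralizer_single _⟩)
  intro b hb
  refine le_centralizer_single_iff.mp ((le_or_inf_le (hI t) (h2 b hb)).resolve_right fun h =>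
    hw (h ⟨hwP, ?_⟩))
  exact mem_centralizer_single.mpr (mem_centralizer_single.mp (h3 hb)).symm

theorem commutator_le_centralizer_of_relIndex (hP : IsPGroup p P)
    (hI : ∀ x : G, (centralizer ({x} : Set G)).relIndex P ∣ p)
    (hS : ∀ x : G, (∃ k, orderOf x = p ^ k) → x ∈ P) (hG : commutator G ≤ P) :
    commutator G ≤ centralizer (P : Set G) := by
  by_cases h : ∃ t : G, (orderOf t).Coprime p ∧ t ∉ centralizer (P : Set G)
  · obtain ⟨t, ht, htP⟩ := h
    exact hG.trans (le_centralizer_self_of_coprime hP hI ht htP)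
  push Not at h
  have key : ∀ g : G, ∃ s ∈ P, QuotientGroup.mk' (centralizer (P : Set G)) g =
      QuotientGroup.mk' (centralizer (P : Set G)) s := by
    intro g
    obtain ⟨s, -, t, -, rfl, hs, ht⟩ := exists_p_part hp.out g
    refine ⟨s, hS s hs, ?_⟩
    rw [map_mul, QuotientGroup.mk'_apply _ t, (QuotientGroup.eq_one_iff t).mpr (h t ht), mul_one]
  rw [commutator_def, commutator_le]
  intro g _ g' _
  obtain ⟨s, hs, e⟩ := key g
  obtain ⟨s', hs', e'⟩ := key g'
  rw [← QuotientGroup.eq_one_iff, ← QuotientGroup.mk'_apply, map_commutatorElement, e, e',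
    ← map_commutatorElement, QuotientGroup.mk'_apply, QuotientGroup.eq_one_iff]
  exact center_le_centralizer _ (commutatorElement_mem_center hP hI hs hs')

/-- The homomorphism `a ↦ ⁅a, x⁆`. -/
def commHom (hz : commutator G ≤ centralizer (P : Set G)) (x : G) : P →* G :=
  MonoidHom.mk' (fun a => ⁅(a : G), x⁆) fun a b => by
    have h1 := hz (commutator_mem_commutator (mem_top (b : G)) (mem_top x))
    have h2 := h1 _ (commutatorElement_mem_left a.2 x)
    have h3 := h1 _ a.2
    rw [h2]
    calc ⁅((a * b : P) : G), x⁆ = a * ⁅(b : G), x⁆ * (a : G)⁻¹ * ⁅(a : G), x⁆ := by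
          simp only [coe_mul, commutatorElement_def]; group
      _ = _ := by rw [h3]; group

theorem mem_range_commHom {hz : commutator G ≤ centralizer (P : Set G)} {x u : G} :
    u ∈ (commHom hz x).range ↔ ∃ a ∈ P, ⁅a, x⁆ = u :=
  ⟨fun ⟨a, h⟩ => ⟨a, a.2, h⟩, fun ⟨a, ha, h⟩ => ⟨⟨a, ha⟩, h⟩⟩

theorem card_range_commHom (hz : commutator G ≤ centralizer (P : Set G)) (x : G) :
    Nat.card (commHom hz x).range = (centralizer ({x} : Set G)).relIndex P := by
  rw [← index_ker, relIndex]
  congr 1
  ext a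
  rw [MonoidHom.mem_ker, mem_subgroupOf, mem_centralizer_single_commute,
    ← commutatorElement_eq_one_iff_commute]
  rfl

theorem conj_mem_range_commHom {hz : commutator G ≤ centralizer (P : Set G)}
    (hG : commutator G ≤ P) {x u : G} (hu : u ∈ (commHom hz x).range) (g : G) :
    g * u * g⁻¹ ∈ (commHom hz x).range := by
  obtain ⟨a, ha, rfl⟩ := mem_range_commHom.mp hu
  have ha' : g * a * g⁻¹ ∈ P := ‹P.Normal›.conj_mem a ha g
  refine mem_range_commHom.mpr ⟨_, ha', ?_⟩
  have hv := commutator_mem_commutator (mem_top g) (mem_top x)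
  have h1 := hz hv _ ha'
  have h2 := hz (commutator_mem_commutator (mem_top (g * a * g⁻¹)) (mem_top x)) _ (hG hv)
  symm
  calc g * ⁅a, x⁆ * g⁻¹ = (g * a * g⁻¹ * ⁅g, x⁆) * x * (g * a * g⁻¹)⁻¹ * x⁻¹ * ⁅g, x⁆⁻¹ := by
        simp only [commutatorElement_def]; group
    _ = ⁅g, x⁆ * ⁅g * a * g⁻¹, x⁆ * ⁅g, x⁆⁻¹ := by
        rw [h1, commutatorElement_def (g * a * g⁻¹)]; group
    _ = _ := by rw [h2]; group

theorem range_commHom_eq (hz : commutator G ≤ centralizer (P : Set G))
    (hI : ∀ x : G, (centralizer ({x} : Set G)).relIndex P ∣ p)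
    (hS : ∀ x : G, (∃ k, orderOf x = p ^ k) → x ∈ P) (hG : commutator G ≤ P) {x y : G}
    (hx : ¬ P ≤ centralizer ({x} : Set G)) (hy : ¬ P ≤ centralizer ({y} : Set G)) :
    (commHom hz x).range = (commHom hz y).range := by
  have hW : ∀ x, Nat.card (commHom hz x).range ∣ p := fun x => by
    rw [card_range_commHom]; exact hI x
  have hne : ∀ {a x : G}, a ∉ centralizer ({x} : Set G) → ⁅a, x⁆ ≠ 1 := fun h e =>
    h (mem_centralizer_single_commute.mpr (commutatorElement_eq_one_iff_commute.mp e))
  have h1 : ∀ {a x : G}, a ∈ centralizer ({x} : Set G) → ⁅a, x⁆ = 1 := fun h =>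
    commutatorElement_eq_one_iff_commute.mpr (mem_centralizer_single_commute.mp h)
  by_contra hxy
  by_cases hC : P ⊓ centralizer ({x} : Set G) ≤ centralizer ({y} : Set G)
  · have hC' := (le_or_inf_le (hI x) hC).resolve_left hy
    obtain ⟨a, ha, hax⟩ := SetLike.not_le_iff_exists.mp hx
    have hay : a ∉ centralizer ({y} : Set G) := fun h => hax (hC' ⟨ha, h⟩)
    have key : ∀ x y : G, (commHom hz x).range ≠ (commHom hz y).range →
        P ⊓ centralizer ({y} : Set G) ≤ centralizer ({x} : Set G) →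
        ⁅a, x⁆ ∈ (commHom hz a).range := by
      intro x y hxy hC
      have h2 : ∀ b ∈ P, Commute ⁅b, x⁆ x := by
        intro b hb
        have hbP := commutatorElement_mem_left hb x
        refine mem_centralizer_single_commute.mp (hC ⟨hbP, ?_⟩)
        by_contra hn
        have hm : ⁅b, x⁆ ∈ (commHom hz x).range := mem_range_commHom.mpr ⟨b, hb, rfl⟩
        refine hxy (eq_of_card_dvd_prime hp.out (hW x) (hW y) (hne hn) ?_
          (mem_range_commHom.mpr ⟨_, hbP, rfl⟩))
        have : ⁅⁅b, x⁆, y⁆ = ⁅b, x⁆ * (y * ⁅b, x⁆⁻¹ * y⁻¹) := by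
          rw [commutatorElement_def ⁅b, x⁆]; group
        rw [this]
        exact mul_mem hm (conj_mem_range_commHom hG (inv_mem hm) y)
      have h3 : x ^ p ∈ centralizer (P : Set G) := by
        intro b hb
        refine (commutatorElement_eq_one_iff_commute.mp ?_).eq
        rw [commutatorElement_pow_right (h2 b hb), ← orderOf_dvd_iff_pow_eq_one]
        exact (Subgroup.orderOf_dvd_natCard _ (mem_range_commHom.mpr ⟨b, hb, rfl⟩)).trans (hW x)
      obtain ⟨s, -, t, ⟨i, rfl⟩, e, hs, ht⟩ := exists_p_part hp.out x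
      have h4 : x ^ i ∈ centralizer (P : Set G) := by
        obtain ⟨j, hj⟩ := exists_pow_eq_self_of_coprime (x := x ^ i) (n := p) ht.symm
        rw [← hj]
        refine pow_mem ?_ j
        rw [← zpow_natCast, ← zpow_mul, mul_comm, zpow_mul, zpow_natCast]
        exact zpow_mem h3 i
      have h5 : ⁅a, x⁆ = ⁅s, a⁆⁻¹ := by
        have h6 := h4 _ (inv_mem ha)
        simp only at e h6
        calc ⁅a, x⁆ = ⁅a, s * x ^ i⁆ := by rw [← e]
          _ = a * s * (x ^ i * a⁻¹) * (x ^ i)⁻¹ * s⁻¹ := by rw [commutatorElement_def]; group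
          _ = _ := by rw [← h6, commutatorElement_def]; group
      rw [h5]
      exact inv_mem (mem_range_commHom.mpr ⟨s, hS s hs, rfl⟩)
    refine hxy ((eq_of_card_dvd_prime hp.out (hW x) (hW a) (hne hax)
      (mem_range_commHom.mpr ⟨a, ha, rfl⟩) (key x y hxy hC')).trans
      (eq_of_card_dvd_prime hp.out (hW y) (hW a) (hne hay)
      (mem_range_commHom.mpr ⟨a, ha, rfl⟩) (key y x (Ne.symm hxy) hC)).symm)
  · have hC' : ¬ P ⊓ centralizer ({y} : Set G) ≤ centralizer ({x} : Set G) := fun h =>
      hC ((le_or_inf_le (hI y) h).resolve_left hx)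
    obtain ⟨a, ha, hay⟩ := SetLike.not_le_iff_exists.mp hC
    obtain ⟨b, hb, hbx⟩ := SetLike.not_le_iff_exists.mp hC'
    have e : ∀ c : G, ⁅c, x * y⁆ = ⁅c, x⁆ * (x * ⁅c, y⁆ * x⁻¹) := fun c => by
      simp only [commutatorElement_def]; group
    have e1 : (commHom hz x).range = (commHom hz (x * y)).range :=
      eq_of_card_dvd_prime hp.out (hW _) (hW _) (hne hbx)
        (mem_range_commHom.mpr ⟨b, hb.1, rfl⟩)
        (mem_range_commHom.mpr ⟨b, hb.1, by rw [e, h1 hb.2]; group⟩)
    have e2 : (commHom hz y).range = (commHom hz (x * y)).range :=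
      eq_of_card_dvd_prime hp.out (hW _) (hW _) (u := x * ⁅a, y⁆ * x⁻¹)
        (fun h => hne hay (conj_eq_one_iff.mp h))
        (conj_mem_range_commHom hG (mem_range_commHom.mpr ⟨a, ha.1, rfl⟩) x)
        (mem_range_commHom.mpr ⟨a, ha.1, by rw [e, h1 ha.2, one_mul]⟩)
    exact hxy (e1.trans e2.symm)

theorem relIndex_dvd_prime (hP : IsPGroup p P) {K : Subgroup G} (hK : Squarefree K.index) :
    K.relIndex P ∣ p := by
  obtain ⟨n, hn⟩ := PGrp.exists_relIndex_eq_pow (H := K) hP
  have h := hK.squarefree_of_dvd (relIndex_dvd_index_of_normal' K P)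
  rw [hn] at h ⊢
  rcases Nat.eq_zero_or_pos n with rfl | h0
  · simp
  · rw [((Nat.squarefree_pow_iff hp.out.ne_one h0.ne').mp h).2, pow_one]

omit [P.Normal] in
theorem card_commutator_dvd_prime
    (h : ∀ x : G, Squarefree (centralizer ({x} : Set G)).index)
    (hG : IsPGroup p (commutator G)) : Nat.card (commutator G) ∣ p := by
  obtain ⟨P, hGP⟩ := hG.exists_le_sylow
  have : (P : Subgroup G).Normal := PGrp.normal_of_commutator_le hGP
  have hI : ∀ x : G, (centralizer ({x} : Set G)).relIndex P ∣ p := fun x =>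
    relIndex_dvd_prime P.isPGroup' (h x)
  have hS : ∀ x : G, (∃ k, orderOf x = p ^ k) → x ∈ (P : Subgroup G) := fun x hx =>
    mem_sylow_of_mem_normalizer P hx (by rw [normalizer_eq_top]; exact mem_top x)
  have hz := commutator_le_centralizer_of_relIndex P.isPGroup' hI hS hGP
  obtain ⟨x, hx⟩ : ∃ x : G, ∀ y : G, (commHom hz y).range ≤ (commHom hz x).range := by
    have h0 : ∀ x y : G, (P : Subgroup G) ≤ centralizer ({y} : Set G) →
        (commHom hz y).range ≤ (commHom hz x).range := by
      intro x y hy u hu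
      obtain ⟨a, ha, rfl⟩ := mem_range_commHom.mp hu
      rw [commutatorElement_eq_one_iff_commute.mpr (mem_centralizer_single_commute.mp (hy ha))]
      exact one_mem _
    by_cases h1 : ∃ x : G, ¬ (P : Subgroup G) ≤ centralizer ({x} : Set G)
    · obtain ⟨x, hx⟩ := h1
      refine ⟨x, fun y => ?_⟩
      by_cases hy : (P : Subgroup G) ≤ centralizer ({y} : Set G)
      · exact h0 x y hy
      · exact (range_commHom_eq hz hI hS hGP hy hx).le
    · push Not at h1
      exact ⟨1, fun y => h0 1 y (h1 y)⟩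
  have h1 := Transfer.sylow_inf_commutator_le_of_fusion P (D := (commHom hz x).range)
    fun a ha g _ => hx g (mem_range_commHom.mpr ⟨a⁻¹, inv_mem ha, by
      rw [commutatorElement_def]; group⟩)
  rw [inf_eq_right.mpr hGP] at h1
  exact (card_dvd_of_le h1).trans (by rw [card_range_commHom]; exact hI x)

end PCase

section Main

theorem card_eq_prime_of_isMinNormal {G : Type*} [Group G] [Finite G]
    (h : ∀ x : G, Squarefree (centralizer ({x} : Set G)).index) {N : Subgroup G} [N.Normal]
    (hN : Core.IsMinNormal N) {p : ℕ} [hp : Fact p.Prime] (hE : IsElementaryAbelian p N)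
    (hc : IsCyclic ((commutator G).map (QuotientGroup.mk' N))) : Nat.card N = p := by
  have hNp := Core.isPGroup_of_isElementaryAbelian hE
  have hNC : N ≤ centralizer (N : Set G) := fun a ha b hb =>
    Core.mul_comm_of_mem_of_isMulCommutative hE.1 hb ha
  by_cases hC : centralizer (N : Set G) = ⊤
  · have h1 := hN.prime_card_of_le_center (centralizer_eq_top_iff_subset.mp hC)
    obtain ⟨k, hk⟩ := hNp.exists_card_eq
    exact ((Nat.prime_dvd_prime_iff_eq h1 hp.out).mp (h1.dvd_of_dvd_pow hk.dvd))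
  obtain ⟨y, hyC, hy⟩ : ∃ y : G, y ∉ centralizer (N : Set G) ∧ ∀ g : G,
      g * y * g⁻¹ ∈ zpowers y ⊔ centralizer (N : Set G) := by
    by_cases hG : commutator G ≤ centralizer (N : Set G)
    · obtain ⟨y, -, hy⟩ := SetLike.not_le_iff_exists.mp (fun h => hC (top_le_iff.mp h))
      refine ⟨y, hy, fun g => ?_⟩
      have : g * y * g⁻¹ = ⁅g, y⁆ * y := by rw [commutatorElement_def]; group
      rw [this]
      exact mul_mem (mem_sup_right (hG (commutator_mem_commutator (mem_top g) (mem_top y))))
        (mem_sup_left (mem_zpowers y))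
    · obtain ⟨z, hz⟩ := (Subgroup.isCyclic_iff_exists_zpowers_eq_top _).mp hc
      obtain ⟨z, hzG, rfl⟩ : z ∈ (commutator G).map (QuotientGroup.mk' N) := hz ▸ mem_zpowers z
      rw [← MonoidHom.map_zpowers] at hz
      have h1 : commutator G ≤ zpowers z ⊔ N := (Core.map_mk_le_map_mk_iff N _ _).mp hz.ge
      refine ⟨z, fun hz => hG (h1.trans (sup_le (zpowers_le.mpr hz) hNC)), fun g => ?_⟩
      exact (h1.trans (sup_le_sup_left hNC _))
        ((inferInstance : (commutator G).Normal).conj_mem z hzG g)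
  have hn : (N ⊓ centralizer ({y} : Set G)).Normal := by
    refine ⟨fun a ha g => ⟨‹N.Normal›.conj_mem a ha.1 g, ?_⟩⟩
    have h1 : zpowers y ⊔ centralizer (N : Set G) ≤ centralizer ({a} : Set G) :=
      sup_le (zpowers_le.mpr (mem_centralizer_single.mpr (mem_centralizer_single.mp ha.2).symm))
        (centralizer_le (Set.singleton_subset_iff.mpr ha.1))
    have h2 := mem_centralizer_single.mp (h1 (hy g⁻¹))
    refine mem_centralizer_single.mpr ?_
    calc g * a * g⁻¹ * y = g * (a * (g⁻¹ * y * g⁻¹⁻¹)) * g⁻¹ := by group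
      _ = y * (g * a * g⁻¹) := by rw [← h2]; group
  have hb : N ⊓ centralizer ({y} : Set G) = ⊥ := hN.eq_bot_of_lt
    (lt_of_le_of_ne inf_le_left fun e =>
      hyC (le_centralizer_single_iff.mp (inf_eq_left.mp e)))
  have h2 := relIndex_dvd_prime hNp (h y)
  have h3 := Core.card_inf_mul_relIndex (centralizer ({y} : Set G)) N
  rw [inf_comm, hb, card_bot, one_mul] at h3
  rw [h3] at h2
  exact ((Nat.dvd_prime hp.out).mp h2).resolve_left (by rw [card_eq_one]; exact hN.ne_bot)

theorem isCyclic_commutator_of_squarefree (G : Type u) [Group G] [Finite G] :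
    Group.IsSolvable G → (∀ x : G, Squarefree (centralizer ({x} : Set G)).index) →
      IsCyclic (commutator G) ∧ Squarefree (Nat.card (commutator G)) := by
  refine Core.induction_on_card (P := fun G _ _ => Group.IsSolvable G →
    (∀ x : G, Squarefree (centralizer ({x} : Set G)).index) →
      IsCyclic (commutator G) ∧ Squarefree (Nat.card (commutator G)))
    (fun G _ _ ih hs h => ?_) G
  have ih' : ∀ (N : Subgroup G) [N.Normal], N ≠ ⊥ →
      IsCyclic ((commutator G).map (QuotientGroup.mk' N)) ∧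
        Squarefree (Nat.card ((commutator G).map (QuotientGroup.mk' N))) := by
    intro N _ hN
    rw [← commutator_quotient]
    refine ih _ (Core.card_quotient_lt hN) inferInstance fun x => ?_
    obtain ⟨x, rfl⟩ := QuotientGroup.mk_surjective x
    exact (h x).squarefree_of_dvd (index_centralizer_mk_dvd N x)
  by_cases hG : commutator G = ⊥
  · rw [hG, card_bot]
    exact ⟨inferInstance, squarefree_one⟩
  obtain ⟨N, hN, hNG⟩ := Core.exists_isMinNormal_le hG
  have := hN.normal
  obtain ⟨p, hp, hE⟩ := hN.exists_isElementaryAbelian inferInstance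
  have : Fact p.Prime := ⟨hp⟩
  obtain ⟨hc, hq⟩ := ih' N hN.ne_bot
  have hNp := card_eq_prime_of_isMinNormal h hN hE hc
  have : IsCyclic N := isCyclic_of_prime_card hNp
  have hcomm : IsMulCommutative (commutator G) := by
    refine MonoidHom.isMulCommutative_of_isCyclic_of_ker_le_center
      ((QuotientGroup.mk' N).subgroupMap (commutator G)) fun a ha => ?_
    have h1 : (a : G) ∈ N := (QuotientGroup.eq_one_iff _).mp (congrArg Subtype.val ha)
    rw [mem_center_iff]
    intro b
    exact Subtype.ext (Schur.commutator_le_centralizer_of_isCyclic N b.2 a h1).symm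
  suffices hsq : Squarefree (Nat.card (commutator G)) by
    have := IsZGroup.of_squarefree hsq
    have : Group.IsNilpotent (commutator G) := Core.isNilpotent_of_isMulCommutative
    exact ⟨inferInstance, hsq⟩
  by_cases hpG : IsPGroup p (commutator G)
  · exact hp.squarefree.squarefree_of_dvd (card_commutator_dvd_prime h hpG)
  rw [Core.isPGroup_iff_forall_prime_dvd] at hpG
  push Not at hpG
  obtain ⟨q, hq', hqG, hqp⟩ := hpG
  have : Fact q.Prime := ⟨hq'⟩
  set K := Core.powKer (commutator G) hcomm q with hK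
  have hKn : K.Normal := Core.normal_iff_top_le_normalizer.mpr (by
    have := Core.normalizer_le_normalizer_powKer (commutator G) hcomm q
    rwa [normalizer_eq_top] at this)
  obtain ⟨-, hq2⟩ := ih' K (Core.powKer_ne_bot hcomm hqG)
  obtain ⟨k, hk⟩ := (Core.isPGroup_of_isElementaryAbelian
    (Core.isElementaryAbelian_powKer (commutator G) hcomm q)).exists_card_eq
  have e1 := Core.card_map_mk_mul N (commutator G)
  have e2 := Core.card_map_mk_mul K (commutator G)
  rw [inf_eq_left.mpr hNG, hNp] at e1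
  rw [inf_eq_left.mpr (Core.powKer_le _ _ _), hk] at e2
  rw [← e1]
  refine (Nat.squarefree_mul ((Nat.Prime.coprime_iff_not_dvd hp).mpr fun hd => ?_)).mpr
    ⟨hp.squarefree, hq⟩
  have h1 : p * p ∣ q ^ k * Nat.card ((commutator G).map (QuotientGroup.mk' K)) := by
    rw [e2, ← e1]; exact Nat.mul_dvd_mul_left p hd
  have h2 : (p * p).Coprime (q ^ k) :=
    Nat.Coprime.pow_right k (Nat.Coprime.mul_left ((Nat.coprime_primes hp hq').mpr hqp.symm)
      ((Nat.coprime_primes hp hq').mpr hqp.symm))
  exact hp.ne_one (Nat.isUnit_iff.mp (hq2 p (h2.dvd_of_dvd_mul_left h1)))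

end Main

end Cfsg.Agent.Cls
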